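import Groth.Agent.Gaga.H978.EtMor
import Groth.Agent.Picfga.CurveChart
import Groth.Agent.An.H863.PtsPullback

/-!
# Holomorphic charts of smooth curves over ℂ
-/

set_option autoImplicit false
set_option linter.dupNamespace false
open CategoryTheory AlgebraicGeometry Topology TopologicalSpace Opposite Filter

namespace Groth.Agent.Gaga.H978.CurveChart

open Groth.Agent.An.H863.PtsBasic Groth.Agent.An.H863.PtsCont Groth.Agent.Gaga.H978.HMap
  Groth.Agent.Gaga.H990.ChartAt Groth.Agent.Gaga.H978.HolAt Groth.Agent.Gaga.H277.AffSp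
  Groth.Agent.Gaga.H978.EtParam Groth.Agent.Gaga.H978.EtMor

/-- The sections of the structure sheaf of Spec ℂ over a nonempty open. -/
lemma opens_eq_top (U : An.SC.Opens) {x : An.SC} (hx : x ∈ U) : U = ⊤ := by
  ext y
  rw [An.eq_cpt y, ← An.eq_cpt x]
  simpa using hx

/-- Sections of a scheme over an open, as global sections of the open subscheme. -/
lemma strHom_opens {X : Scheme.{0}} [X.Over An.SC] (V : X.Opens) :
    An.strHom V.toScheme = (V.topIso.inv).hom.comp (strU V) := by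
  ext c
  have h1 : (V.toScheme ↘ An.SC) = V.ι ≫ (X ↘ An.SC) := (Scheme.Opens.ι_comp_over ..).symm
  have h2 : V.ι.appTop = X.presheaf.map (homOfLE le_top).op ≫ V.topIso.inv := by
    exact X.presheaf.map_comp (homOfLE (le_top : V ≤ ⊤)).op (eqToIso V.ι_image_top.symm).inv.op
  change (V.toScheme ↘ An.SC).appTop ((Scheme.ΓSpecIso (CommRingCat.of ℂ)).inv c) =
    V.topIso.inv (X.presheaf.map (homOfLE le_top).op ((X ↘ An.SC).appTop
      ((Scheme.ΓSpecIso (CommRingCat.of ℂ)).inv c)))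
  rw [h1, Scheme.Hom.comp_appTop, CommRingCat.comp_apply, h2]
  rfl

/-- A parametrisation from etale coordinates on an affine open subscheme. -/
theorem exists_param_affine {n : ℕ} {X : Scheme.{0}} [X.Over An.SC] (V : X.Opens)
    (hV : IsAffineOpen V) (φ : MvPolynomial (Fin n) ℂ →+* Γ(X, V))
    (hφ : φ.comp MvPolynomial.C = strU V) (h : φ.Etale) (p : An.Pts X) (hp : p.pt ∈ V) :
    ∃ c : OpenPartialHomeomorph (Fin n → ℂ) (An.Pts X), p ∈ c.target ∧
      (∀ z ∈ c.source, (c z).pt ∈ V) ∧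
      (∀ z ∈ c.source, ∀ i, evAt (c z) V (φ (MvPolynomial.X i)) = z i) ∧
      ∀ z ∈ c.source, HolAt c z := by
  have : IsAffine V.toScheme := hV
  let φ' : MvPolynomial (Fin n) ℂ →+* Γ(V.toScheme, ⊤) := (V.topIso.inv).hom.comp φ
  have h1 : φ'.comp MvPolynomial.C = An.strHom V.toScheme := by
    rw [strHom_opens, ← hφ, RingHom.comp_assoc]
  have h2 : φ'.Etale := by
    refine RingHom.Etale.stableUnderComposition _ _ h (RingHom.Etale.of_bijective ?_)
    exact (ConcreteCategory.isIso_iff_bijective V.topIso.inv).1 inferInstance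
  obtain ⟨q, hq⟩ : ∃ q : An.Pts V.toScheme, An.Pts.map V.ι q = p := by
    have : p ∈ Set.range (An.Pts.map V.ι) := by
      rw [Groth.Agent.An.H871.Imm.range_map_of_isOpenImmersion]
      simpa using hp
    exact this
  obtain ⟨c, hpc, hc, hc'⟩ := exists_param_open V.ι φ' h1 h2 q
  have hmem : ∀ q' : An.Pts V.toScheme, (An.Pts.map V.ι q').pt ∈ V := by
    intro q'
    rw [An.Pts.pt_map]
    exact q'.pt.2
  refine ⟨c, hq ▸ hpc, fun z hz => ?_, fun z hz i => ?_, hc'⟩
  · obtain ⟨q', hq', -⟩ := hc z hz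
    rw [← hq']
    exact hmem q'
  · obtain ⟨q', hq', hq''⟩ := hc z hz
    have h3 : φ' (MvPolynomial.X i) = V.ι.appLE V ⊤ (by simp) (φ (MvPolynomial.X i)) := by
      rw [Scheme.Opens.ι_appLE]
      rfl
    rw [← hq', ← hq'' i, h3, ← evAt_top, Groth.Agent.An.H863.PtsPullback.evAt_appLE]
    trivial

/-- Charts of smooth curves. -/
theorem exists_chart {N : Scheme.{0}} [N.Over An.SC] [SmoothOfRelativeDimension 1 (N ↘ An.SC)]
    (p : An.Pts N) : ∃ c : OpenPartialHomeomorph ℂ (An.Pts N), p ∈ c.target ∧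
      ∀ z ∈ c.source, HolAt c z := by
  obtain ⟨U, V, hpV, -, e, g, hg, hget⟩ :=
    Groth.Agent.Picfga.CurveChart.exists_chart (N ↘ An.SC) p.pt ⊤ trivial
  obtain ⟨U, hU⟩ := U
  obtain rfl : U = ⊤ := opens_eq_top U (e hpV)
  -- ring maps
  let ι₀ : ℂ →+* Γ(An.SC, ⊤) := (Scheme.ΓSpecIso (CommRingCat.of ℂ)).inv.hom
  have hι₀ : Function.Bijective ι₀ :=
    (ConcreteCategory.isIso_iff_bijective (Scheme.ΓSpecIso (CommRingCat.of ℂ)).inv).1 inferInstance
  let e₁ : MvPolynomial (Fin 1) ℂ ≃ₐ[ℂ] Polynomial ℂ := MvPolynomial.uniqueAlgEquiv ℂ (Fin 1)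
  let φ : MvPolynomial (Fin 1) ℂ →+* Γ(N, V.1) :=
    (g.comp (Polynomial.mapRingHom ι₀)).comp (e₁ : MvPolynomial (Fin 1) ℂ →+* Polynomial ℂ)
  have hφ : φ.comp MvPolynomial.C = strU V.1 := by
    ext c
    have h1 : e₁ (MvPolynomial.C c) = Polynomial.C c := e₁.commutes c
    have h2 : φ (MvPolynomial.C c) = g (Polynomial.C (ι₀ c)) := by
      change g (Polynomial.map ι₀ (e₁ (MvPolynomial.C c))) = _
      rw [h1, Polynomial.map_C]
    have h3 : g (Polynomial.C (ι₀ c)) = ((N ↘ An.SC).appLE ⊤ V.1 e).hom (ι₀ c) := by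
      rw [← hg]
      rfl
    rw [RingHom.comp_apply, h2, h3]
    rfl
  have het : φ.Etale := by
    refine RingHom.Etale.stableUnderComposition _ _ (RingHom.Etale.of_bijective e₁.bijective) ?_
    refine RingHom.Etale.stableUnderComposition _ _ (RingHom.Etale.of_bijective ?_) hget
    exact ⟨Polynomial.map_injective ι₀ hι₀.1, Polynomial.map_surjective ι₀ hι₀.2⟩
  obtain ⟨c, hpc, -, -, hc⟩ := exists_param_affine V.1 V.2 φ hφ het p hpV
  -- pass from `Fin 1 → ℂ` to `ℂ`
  let L : ℂ ≃ₜ (Fin 1 → ℂ) := (Homeomorph.funUnique (Fin 1) ℂ).symm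
  have hL : ∀ t, L t = fun _ => t := fun t => by ext; rfl
  refine ⟨L.toOpenPartialHomeomorph.trans c, ?_, fun z hz => ?_⟩
  · rw [OpenPartialHomeomorph.trans_target]
    exact ⟨hpc, by simp⟩
  · have hz' : L z ∈ c.source := by
      simpa using hz
    have h1 : HolAt c (L z) := hc _ hz'
    have h2 : DifferentiableAt ℂ (fun t => L t) z := by
      rw [differentiableAt_pi]
      intro i
      exact differentiableAt_id
    exact h1.comp_diff h2

end Groth.Agent.Gaga.H978.CurveChart
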