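import Groth.Agent.Gaga.H978.GenEt
import Mathlib.RingTheory.NoetherNormalization
import Mathlib.RingTheory.Polynomial.Eisenstein.Basic

/-!
# A domain of finite type over ℂ is, generically, finite and etale over a polynomial ring
-/

set_option autoImplicit false

open Polynomial

namespace Groth.Agent.Gaga.H978.EtFinite

/-- Etaleness is inherited by further localizations. -/
theorem etale_of_dvd {A R : Type} [CommRing A] [CommRing R] [Algebra A R] [Algebra.FinitePresentation A R]
    {r r' : R} (hr : Algebra.Etale A (Localization.Away r)) (h : r ∣ r') :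
    Algebra.Etale A (Localization.Away r') := by
  rw [← Algebra.basicOpen_subset_etaleLocus_iff_etale] at hr ⊢
  refine subset_trans ?_ hr
  obtain ⟨b, rfl⟩ := h
  intro p hp
  rw [SetLike.mem_coe, PrimeSpectrum.mem_basicOpen] at hp ⊢
  exact fun h' => hp (p.asIdeal.mul_mem_right b h')

theorem etale_of_isLocalization {A R B : Type} [CommRing A] [CommRing R] [Algebra A R]
    [CommRing B] [Algebra R B] [Algebra A B] [IsScalarTower A R B] (r : R)
    (hr : Algebra.Etale A (Localization.Away r)) [IsLocalization.Away r B] :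
    Algebra.Etale A B :=
  Algebra.Etale.of_equiv
    ((IsLocalization.algEquiv (Submonoid.powers r) (Localization.Away r) B).restrictScalars A)

/-- Finite type domains over ℂ: Noether normalisation + generic etaleness. -/
theorem exists_finite_etale (R : Type) [CommRing R] [IsDomain R] [Algebra ℂ R]
    [Algebra.FiniteType ℂ R] :
    ∃ (n : ℕ) (φ : MvPolynomial (Fin n) ℂ →ₐ[ℂ] R) (Δ : MvPolynomial (Fin n) ℂ), Δ ≠ 0 ∧
      Function.Injective φ ∧ φ.Finite ∧
      ∀ (B : Type) [CommRing B] [Algebra R B] [IsLocalization.Away (φ Δ) B],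
        ((algebraMap R B).comp (φ : MvPolynomial (Fin n) ℂ →+* R)).Etale := by
  obtain ⟨n, φ, hφ, hfin⟩ := exists_finite_inj_algHom_of_fg ℂ R
  let : Algebra (MvPolynomial (Fin n) ℂ) R := φ.toRingHom.toAlgebra
  have hfin' : Module.Finite (MvPolynomial (Fin n) ℂ) R := hfin
  have : FaithfulSMul (MvPolynomial (Fin n) ℂ) R := (faithfulSMul_iff_algebraMap_injective _ _).2 hφ
  have : Algebra.IsIntegral (MvPolynomial (Fin n) ℂ) R := inferInstance
  have halg : Algebra.IsAlgebraic (MvPolynomial (Fin n) ℂ) R := inferInstance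
  obtain ⟨r, hr, hr'⟩ := GenEt.exists_etale (A := MvPolynomial (Fin n) ℂ) (R := R)
  obtain ⟨Δ, hΔ, hdvd⟩ := (halg.isAlgebraic r).exists_nonzero_dvd (mem_nonZeroDivisors_of_ne_zero hr)
  have : Algebra.FinitePresentation (MvPolynomial (Fin n) ℂ) R :=
    Algebra.FinitePresentation.of_finiteType.1 inferInstance
  have h2 := etale_of_dvd hr' hdvd
  refine ⟨n, φ, Δ, hΔ, hφ, hfin, ?_⟩
  intro B _ _ hB
  let : Algebra (MvPolynomial (Fin n) ℂ) B :=
    ((algebraMap R B).comp (algebraMap (MvPolynomial (Fin n) ℂ) R)).toAlgebra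
  have : IsScalarTower (MvPolynomial (Fin n) ℂ) R B := IsScalarTower.of_algebraMap_eq fun _ => rfl
  have hB' : IsLocalization.Away (algebraMap (MvPolynomial (Fin n) ℂ) R Δ) B := hB
  exact etale_of_isLocalization (A := MvPolynomial (Fin n) ℂ) (R := R) (B := B) _ h2

/-- Every element of the localization satisfies a polynomial relation with a coefficient which is a
unit. -/
theorem exists_relation {n : ℕ} {R B : Type} [CommRing R] [CommRing B] [Algebra R B]
    (φ : MvPolynomial (Fin n) ℂ →+* R) (hfin : φ.Finite) (Δ : MvPolynomial (Fin n) ℂ)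
    [IsLocalization.Away (φ Δ) B] (g : B) :
    ∃ (Q : Polynomial (MvPolynomial (Fin n) ℂ)) (m : ℕ),
      Q.eval₂ ((algebraMap R B).comp φ) g = 0 ∧ IsUnit (((algebraMap R B).comp φ) (Q.coeff m)) := by
  obtain ⟨N, a, ha⟩ := IsLocalization.Away.surj (φ Δ) g
  obtain ⟨Q₀, hQ₀, hQ₀a⟩ := hfin.to_isIntegral a
  refine ⟨Q₀.comp (C (Δ ^ N) * X), Q₀.natDegree, ?_, ?_⟩
  · rw [eval₂_comp, eval₂_mul, eval₂_C, eval₂_X]
    have h1 : ((algebraMap R B).comp φ) (Δ ^ N) * g = algebraMap R B a := by
      rw [← ha, mul_comm, map_pow]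
      rfl
    rw [h1, ← Polynomial.hom_eval₂, hQ₀a, map_zero]
  · rw [comp_C_mul_X_coeff, hQ₀.coeff_natDegree, one_mul, ← pow_mul, map_pow]
    exact (IsLocalization.Away.algebraMap_isUnit (S := B) (φ Δ)).pow _

end Groth.Agent.Gaga.H978.EtFinite
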