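import Groth.Agent.Gaga.H978.EtParam
import Groth.Agent.An.H871.Imm
import Mathlib.AlgebraicGeometry.Morphisms.Etale

/-!
# Morphisms to affine space given by etale ring maps, and parametrisations
-/

set_option autoImplicit false
set_option linter.dupNamespace false
open CategoryTheory AlgebraicGeometry Topology TopologicalSpace Opposite Filter

namespace Groth.Agent.Gaga.H978.EtMor

open Groth.Agent.An.H863.PtsBasic Groth.Agent.An.H863.PtsCont Groth.Agent.Gaga.H978.HMap
  Groth.Agent.Gaga.H990.ChartAt Groth.Agent.Gaga.H978.HolAt Groth.Agent.Gaga.H277.AffSp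
  Groth.Agent.Gaga.H978.EtParam

variable {M : Scheme.{0}} [M.Over An.SC] {n : ℕ}

/-- The structure morphism of a scheme over ℂ through its global sections. -/
lemma over_eq (M : Scheme.{0}) [M.Over An.SC] :
    (M ↘ An.SC) = M.toSpecΓ ≫ Spec.map (CommRingCat.ofHom (An.strHom M)) := by
  have h1 : CommRingCat.ofHom (An.strHom M) =
      (Scheme.ΓSpecIso (CommRingCat.of ℂ)).inv ≫ (M ↘ An.SC).appTop := rfl
  rw [h1, Spec.map_comp, ← Scheme.toSpecΓ_naturality_assoc]
  simp

/-- The morphism to affine space given by global sections `φ (X i)`. -/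
noncomputable def mor (φ : MvPolynomial (Fin n) ℂ →+* Γ(M, ⊤)) : M ⟶ 𝔸(Fin n; An.SC) :=
  AffineSpace.homOfVector (M ↘ An.SC) (fun i => φ (MvPolynomial.X i))

instance (φ : MvPolynomial (Fin n) ℂ →+* Γ(M, ⊤)) : (mor φ).IsOver An.SC :=
  ⟨AffineSpace.homOfVector_over _ _⟩

lemma mor_eq (φ : MvPolynomial (Fin n) ℂ →+* Γ(M, ⊤)) (hφ : φ.comp MvPolynomial.C = An.strHom M) :
    mor φ = M.toSpecΓ ≫ Spec.map (CommRingCat.ofHom φ) ≫
      (AffineSpace.SpecIso (Fin n) (CommRingCat.of ℂ)).inv := by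
  apply AffineSpace.hom_ext
  · rw [mor, AffineSpace.homOfVector_over]
    have h1 : CommRingCat.ofHom (MvPolynomial.C (σ := Fin n) (R := ℂ)) ≫ CommRingCat.ofHom φ =
        CommRingCat.ofHom (An.strHom M) := by
      rw [← CommRingCat.ofHom_comp, hφ]
    have h2 := AffineSpace.SpecIso_inv_over (n := Fin n) (CommRingCat.of ℂ)
    rw [Category.assoc, Category.assoc]
    refine (over_eq M).trans ?_
    rw [← h1, Spec.map_comp]
    exact congrArg (fun q => M.toSpecΓ ≫ Spec.map (CommRingCat.ofHom φ) ≫ q) h2.symm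
  · intro i
    rw [mor, AffineSpace.homOfVector_appTop_coord]
    have h3 := AffineSpace.SpecIso_inv_appTop_coord (n := Fin n) (CommRingCat.of ℂ) i
    rw [Scheme.Hom.comp_appTop, Scheme.Hom.comp_appTop]
    simp only [CommRingCat.comp_apply]
    erw [h3]
    have h4 : (Spec.map (CommRingCat.ofHom φ)).appTop ((Scheme.ΓSpecIso
        (CommRingCat.of (MvPolynomial (Fin n) ℂ))).inv (MvPolynomial.X i)) =
        (Scheme.ΓSpecIso Γ(M, ⊤)).inv (φ (MvPolynomial.X i)) := by
      have h5 := Scheme.ΓSpecIso_inv_naturality (CommRingCat.ofHom φ)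
      exact congrArg (fun q => q.hom (MvPolynomial.X i)) h5.symm
    erw [h4]
    have h6 : M.toSpecΓ.appTop = (Scheme.ΓSpecIso Γ(M, ⊤)).hom := Scheme.toSpecΓ_appTop M
    rw [h6, ← CommRingCat.comp_apply, Iso.inv_hom_id]
    rfl

theorem etale_mor [IsAffine M] (φ : MvPolynomial (Fin n) ℂ →+* Γ(M, ⊤))
    (hφ : φ.comp MvPolynomial.C = An.strHom M) (h : φ.Etale) : Etale (mor φ) := by
  rw [mor_eq φ hφ]
  have h1 : Etale (Spec.map (CommRingCat.ofHom φ)) :=
    (HasRingHomProperty.Spec_iff (P := @Etale)).2 h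
  infer_instance

lemma coords_mor (φ : MvPolynomial (Fin n) ℂ →+* Γ(M, ⊤)) (q : An.Pts M) (i : Fin n) :
    coords (An.Pts.map (mor φ) q) i = q.evTop (φ (MvPolynomial.X i)) := by
  change (An.Pts.map (mor φ) q).evTop (AffineSpace.coord An.SC i) = _
  rw [evTop_eq, evTop_eq]
  congr 1
  have h1 : (An.Pts.map (mor φ) q).1 = q.1 ≫ mor φ := rfl
  rw [h1, Scheme.Hom.comp_appTop, CommRingCat.comp_apply]
  congr 1
  exact AffineSpace.homOfVector_appTop_coord _ _ i

/-- Etale coordinates on an affine scheme `M`, open in `X`, give a local holomorphic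
parametrisation of `X(ℂ)`. -/
theorem exists_param_open {X : Scheme.{0}} [X.Over An.SC] (j : M ⟶ X) [j.IsOver An.SC]
    [IsOpenImmersion j] [IsAffine M] (φ : MvPolynomial (Fin n) ℂ →+* Γ(M, ⊤))
    (hφ : φ.comp MvPolynomial.C = An.strHom M) (h : φ.Etale) (p : An.Pts M) :
    ∃ c : OpenPartialHomeomorph (Fin n → ℂ) (An.Pts X), An.Pts.map j p ∈ c.target ∧
      (∀ z ∈ c.source, ∃ q : An.Pts M, An.Pts.map j q = c z ∧
        ∀ i, q.evTop (φ (MvPolynomial.X i)) = z i) ∧ ∀ z ∈ c.source, HolAt c z := by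
  have := etale_mor φ hφ h
  obtain ⟨c, hpc, hc, hc'⟩ := exists_param (mor φ) p
  have : Nonempty (An.Pts M) := ⟨p⟩
  have hj := Groth.Agent.An.H871.Imm.isOpenEmbedding_map j
  let c' : OpenPartialHomeomorph (Fin n → ℂ) (An.Pts X) := c.trans (hj.toOpenPartialHomeomorph _)
  have hc'' : ∀ z, c' z = An.Pts.map j (c z) := fun z => rfl
  have hsrc : c'.source = c.source := by
    simp [c', OpenPartialHomeomorph.trans_source]
  refine ⟨c', ?_, fun z hz => ⟨c z, rfl, fun i => ?_⟩, fun z hz => ?_⟩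
  · have h1 : c' (c.symm p) = An.Pts.map j p := by
      rw [hc'', c.right_inv hpc]
    rw [← h1]
    exact c'.map_source (by rw [hsrc]; exact c.map_target hpc)
  · rw [hsrc] at hz
    rw [← coords_mor, hc z hz]
  · rw [hsrc] at hz
    exact (hc' z hz).comp_holMapAt (holMapAt_map j (c z))

end Groth.Agent.Gaga.H978.EtMor
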