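import Groth.Agent.Gaga.H978.EtFinite
import Groth.Agent.Gaga.H978.EtMor
import Groth.Agent.An.H868.Chart
import Mathlib.AlgebraicGeometry.Properties

/-!
# Etale charts of integral schemes locally of finite type over ℂ
-/

set_option autoImplicit false
set_option linter.dupNamespace false
open CategoryTheory AlgebraicGeometry Topology TopologicalSpace Opposite Filter

namespace Groth.Agent.Gaga.H978.EtLocus

open Groth.Agent.An.H863.PtsBasic Groth.Agent.An.H863.PtsCont

variable {X : Scheme.{0}} [X.Over An.SC]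

/-- An integral scheme locally of finite type over ℂ has a nonempty affine open subscheme which is
etale over an affine space, such that every section satisfies an algebraic equation over the
polynomials, with a coefficient which vanishes nowhere. -/
theorem exists_etale_chart (X : Scheme.{0}) [X.Over An.SC] [IsIntegral X]
    [LocallyOfFiniteType (X ↘ An.SC)] :
    ∃ (n : ℕ) (U : X.Opens) (_ : IsAffineOpen U) (φ : MvPolynomial (Fin n) ℂ →+* Γ(X, U)),
      (U : Set X).Nonempty ∧ φ.comp MvPolynomial.C = strU U ∧ φ.Etale ∧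
      ∀ g : Γ(X, U), ∃ (Q : Polynomial (MvPolynomial (Fin n) ℂ)) (m : ℕ),
        Q.eval₂ φ g = 0 ∧ IsUnit (φ (Q.coeff m)) := by
  obtain ⟨p⟩ := (inferInstance : Nonempty X)
  obtain ⟨U', hU', hpU', -⟩ := exists_isAffineOpen_mem_and_subset (x := p) (U := ⊤) trivial
  have : Nonempty U' := ⟨⟨p, hpU'⟩⟩
  let : Algebra ℂ Γ(X, U') := (strU U').toAlgebra
  have hft : Algebra.FiniteType ℂ Γ(X, U') := Groth.Agent.An.H868.Chart.finiteType_algU hU'
  obtain ⟨n, φ, Δ, hΔ, hφ, hfin, het⟩ := EtFinite.exists_finite_etale Γ(X, U')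
  let U := X.basicOpen (φ Δ)
  have hle : U ≤ U' := X.basicOpen_le _
  have hloc : IsLocalization.Away (φ Δ) Γ(X, U) := hU'.isLocalization_basicOpen (φ Δ)
  let ψ : MvPolynomial (Fin n) ℂ →+* Γ(X, U) :=
    (algebraMap Γ(X, U') Γ(X, U)).comp (φ : MvPolynomial (Fin n) ℂ →+* Γ(X, U'))
  refine ⟨n, U, hU'.basicOpen _, ψ, ?_, ?_, het Γ(X, U), fun g => ?_⟩
  · rw [Set.nonempty_iff_ne_empty]
    intro hempty
    have h1 : X.basicOpen (φ Δ) = ⊥ := by
      ext1
      exact hempty
    rw [basicOpen_eq_bot_iff] at h1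
    exact hΔ (hφ (h1.trans (map_zero φ).symm))
  · ext c
    have h1 : φ (MvPolynomial.C c) = strU U' c := φ.commutes c
    change algebraMap Γ(X, U') Γ(X, U) (φ (MvPolynomial.C c)) = strU U c
    rw [h1]
    exact map_strU hle c
  · have : IsLocalization.Away ((φ : MvPolynomial (Fin n) ℂ →+* Γ(X, U')) Δ) Γ(X, U) := hloc
    exact EtFinite.exists_relation (φ : MvPolynomial (Fin n) ℂ →+* Γ(X, U')) hfin Δ g

end Groth.Agent.Gaga.H978.EtLocus
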