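import Groth.Agent.Gaga.H978.HolAt
import Groth.Agent.Gaga.H990.EtInv
import Groth.Agent.Gaga.H277.AffSp
import Mathlib.Topology.OpenPartialHomeomorph.Composition

/-!
# Local holomorphic parametrisations from etale coordinates
-/

set_option autoImplicit false
set_option linter.dupNamespace false
open CategoryTheory AlgebraicGeometry Topology TopologicalSpace Opposite Filter

namespace Groth.Agent.Gaga.H978.EtParam

open Groth.Agent.An.H863.PtsBasic Groth.Agent.An.H863.PtsCont Groth.Agent.Gaga.H978.HMap
  Groth.Agent.Gaga.H990.ChartAt Groth.Agent.Gaga.H978.HolAt Groth.Agent.Gaga.H277.AffSp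

variable {M : Scheme.{0}} [M.Over An.SC] {n : ℕ}

/-- The parametrisation of affine space by its coordinates is holomorphic. -/
lemma holAt_point (z : Fin n → ℂ) : HolAt (point (n := n)) z :=
  holAt_of_affine ⊤ (isAffineOpen_top _) (Eventually.of_forall fun _ => trivial)
    fun f => differentiableAt_evAt ⊤ f z trivial

/-- Etale coordinates give a local holomorphic parametrisation. -/
theorem exists_param (g : M ⟶ 𝔸(Fin n; An.SC)) [g.IsOver An.SC] [Etale g] (p : An.Pts M) :
    ∃ c : OpenPartialHomeomorph (Fin n → ℂ) (An.Pts M), p ∈ c.target ∧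
      (∀ z ∈ c.source, coords (An.Pts.map g (c z)) = z) ∧ ∀ z ∈ c.source, HolAt c z := by
  obtain ⟨e, hpe, he⟩ := Groth.Agent.An.H866.EtLH.isLocalHomeomorph_map g p
  let c : OpenPartialHomeomorph (Fin n → ℂ) (An.Pts M) :=
    (homeo n).symm.toOpenPartialHomeomorph.trans e.symm
  have hc : ∀ z, c z = e.symm (point z) := fun z => rfl
  have hsrc : ∀ z, z ∈ c.source ↔ point z ∈ e.target := by
    intro z
    simp [c, OpenPartialHomeomorph.trans_source]
  have hg : ∀ z ∈ c.source, An.Pts.map g (c z) = point z := by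
    intro z hz
    rw [hc, he]
    exact e.right_inv ((hsrc z).1 hz)
  have hp : p ∈ c.target := by
    rw [OpenPartialHomeomorph.trans_target]
    refine ⟨hpe, ?_⟩
    simp
  refine ⟨c, hp, fun z hz => ?_, fun z hz => ?_⟩
  · rw [hg z hz, coords_point]
  · have hcc : ContinuousAt c z := c.continuousAt hz
    refine ⟨hcc, fun φ hφ => ?_⟩
    obtain ⟨ψ, hψ, hψ'⟩ := Groth.Agent.Gaga.H990.EtInv.exists_chartAt g hφ
    rw [hg z hz] at hψ
    have h1 := (holAt_point z).differentiableAt ψ hψ
    refine h1.congr_of_eventuallyEq ?_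
    filter_upwards [hcc.eventually hψ', c.open_source.mem_nhds hz] with t ht ht'
    rw [ht, hg t ht']

end Groth.Agent.Gaga.H978.EtParam
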