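import Mathlib.RingTheory.Etale.Locus
import Mathlib.RingTheory.Etale.Field
import Mathlib.RingTheory.RingHom.Etale
import Mathlib.RingTheory.Polynomial.Basic
import Mathlib.RingTheory.FinitePresentation
import Mathlib.FieldTheory.Perfect
import Mathlib.Analysis.Complex.Basic
import Mathlib.RingTheory.Localization.FractionRing
import Mathlib.RingTheory.Algebraic.Integral
import Mathlib.RingTheory.Localization.Integral

/-!
# Generic etaleness of algebraic extensions of domains in characteristic zero
-/

set_option autoImplicit false

namespace Groth.Agent.Gaga.H978.GenEt

lemma isLocalization_of_eq {R L : Type*} [CommRing R] [CommRing L] [Algebra R L] {M M' : Submonoid R}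
    (h : M = M') (H : IsLocalization M L) : IsLocalization M' L := by
  subst h; exact H

/-- A domain `R` of finite type over `A` (Noetherian domain of characteristic zero), algebraic over
`A ⊆ R`, is etale over `A` after inverting one nonzero element. -/
theorem exists_etale {A R : Type} [CommRing A] [IsDomain A] [CommRing R] [IsDomain R] [Algebra A R]
    [IsNoetherianRing A] [CharZero A] [Algebra.FiniteType A R] [FaithfulSMul A R]
    [Algebra.IsAlgebraic A R] :
    ∃ r : R, r ≠ 0 ∧ Algebra.Etale A (Localization.Away r) := by
  have : Algebra.FinitePresentation A R := Algebra.FinitePresentation.of_finiteType.1 inferInstance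
  let K := FractionRing A
  let P : Ideal R := ⊥
  have hP : P.IsPrime := Ideal.isPrime_bot
  let L := Localization.AtPrime P
  have h1 : P.primeCompl = nonZeroDivisors R := by
    ext x
    simp [P, Ideal.primeCompl, mem_nonZeroDivisors_iff_ne_zero]
  have hL : IsFractionRing R L :=
    isLocalization_of_eq h1 (inferInstance : IsLocalization P.primeCompl L)
  have : IsDomain L := IsFractionRing.isDomain R
  let : Field L := IsFractionRing.toField R
  have hinj : Function.Injective (algebraMap A L) := by
    rw [IsScalarTower.algebraMap_eq A R L]
    exact (IsFractionRing.injective R L).comp (FaithfulSMul.algebraMap_injective A R)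
  let : Algebra K L := (IsFractionRing.lift (K := K) hinj).toAlgebra
  have : IsScalarTower A K L := by
    refine IsScalarTower.of_algebraMap_eq fun a => ?_
    change _ = IsFractionRing.lift (K := K) hinj (algebraMap A K a)
    rw [IsFractionRing.lift_algebraMap]
  have : CharZero K := by
    exact charZero_of_injective_algebraMap (IsFractionRing.injective A K)
  have halg : Algebra.IsAlgebraic K L := by
    have h2 : Algebra.IsAlgebraic A L := by
      have : FaithfulSMul A L := (faithfulSMul_iff_algebraMap_injective A L).2 hinj
      have : Module.IsTorsionFree A L := inferInstance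
      exact (IsFractionRing.isAlgebraic_iff' A R L).1 inferInstance
    exact ⟨fun x => (h2.isAlgebraic x).extendScalars (IsFractionRing.injective A K)⟩
  have : Algebra.IsSeparable K L := inferInstance
  have h3 : Algebra.FormallyEtale K L := Algebra.FormallyEtale.of_isSeparable K L
  have h4 : Algebra.FormallyEtale A K := Algebra.FormallyEtale.of_isLocalization (nonZeroDivisors A)
  have h5 : Algebra.FormallyEtale A L := Algebra.FormallyEtale.comp A K L
  have h6 : Algebra.IsEtaleAt A P := h5
  obtain ⟨r, hr, hr'⟩ := Algebra.exists_etale_of_isEtaleAt (R := A) P
  exact ⟨r, fun h => hr (by simp [h]), hr'⟩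

end Groth.Agent.Gaga.H978.GenEt
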