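import Groth.Prelude.Def_AnHol
import Groth.Agent.An.H863.PtsCont
import Mathlib.Analysis.Calculus.FDeriv.Mul

/-!
# Holomorphic maps from open subsets of normed spaces to spaces of complex points
-/

set_option autoImplicit false
open CategoryTheory AlgebraicGeometry Topology TopologicalSpace Opposite

namespace Groth.Agent.Gaga.H978.HMap

open Groth.Agent.An.H863.PtsBasic Groth.Agent.An.H863.PtsCont

variable {X : Scheme.{0}} [X.Over An.SC]
variable {E : Type*} [NormedAddCommGroup E] [NormedSpace ℂ E]

/-- A map `s : E → X(ℂ)` is holomorphic on `D ⊆ E` (meant: `D` open) when it is continuous on `D`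
and regular functions pull back to complex-differentiable functions. -/
structure HolOn (s : E → An.Pts X) (D : Set E) : Prop where
  continuousOn : ContinuousOn s D
  differentiableOn : ∀ (W : X.Opens) (g : Γ(X, W)),
    DifferentiableOn ℂ (fun z => evAt (s z) W g) (D ∩ s ⁻¹' (An.Pts.pt ⁻¹' (W : Set X)))

end Groth.Agent.Gaga.H978.HMap
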