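import Groth.Agent.Gaga.H978.HMap
import Groth.Agent.Gaga.H990.ChartAt
import Groth.Agent.Gaga.H277.DiffAt

/-!
# Holomorphic maps from normed spaces to spaces of complex points, pointwise form

`HolAt s z`: `s` is continuous at `z` and functions which are holomorphic near `s z` (`ChartAt`)
pull back to functions which are complex-differentiable at `z`.
-/

set_option autoImplicit false
set_option linter.dupNamespace false
open CategoryTheory AlgebraicGeometry Topology TopologicalSpace Opposite Filter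

namespace Groth.Agent.Gaga.H978.HolAt

open Groth.Agent.An.H863.PtsBasic Groth.Agent.An.H863.PtsCont Groth.Agent.Gaga.H978.HMap
  Groth.Agent.Gaga.H990.ChartAt

variable {X Y : Scheme.{0}} [X.Over An.SC] [Y.Over An.SC]
variable {E F : Type*} [NormedAddCommGroup E] [NormedSpace ℂ E]
  [NormedAddCommGroup F] [NormedSpace ℂ F]

/-- Pointwise holomorphy of a map from a complex normed space to `X(ℂ)`. -/
structure HolAt (s : E → An.Pts X) (z : E) : Prop where
  continuousAt : ContinuousAt s z
  differentiableAt : ∀ φ : An.Pts X → ℂ, ChartAt φ (s z) → DifferentiableAt ℂ (fun t => φ (s t)) z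

lemma HolAt.evAt {s : E → An.Pts X} {z : E} (h : HolAt s z) {W : X.Opens} (hz : (s z).pt ∈ W)
    (g : Γ(X, W)) : DifferentiableAt ℂ (fun t => evAt (s t) W g) z :=
  h.differentiableAt _ (chartAt_evAt W g hz)

lemma HolAt.congr {s s' : E → An.Pts X} {z : E} (h : HolAt s z) (h' : s' =ᶠ[𝓝 z] s) :
    HolAt s' z := by
  have hz : s' z = s z := h'.self_of_nhds
  refine ⟨h.continuousAt.congr h'.symm, fun φ hφ => ?_⟩
  rw [hz] at hφ
  exact (h.differentiableAt φ hφ).congr_of_eventuallyEq (h'.mono fun t ht => by simp only [ht])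

/-- Precomposition with a differentiable map. -/
lemma HolAt.comp_diff {s : E → An.Pts X} {u : F → E} {w : F} (h : HolAt s (u w))
    (hu : DifferentiableAt ℂ u w) : HolAt (fun t => s (u t)) w := by
  refine ⟨ContinuousAt.comp (g := s) (f := u) h.continuousAt hu.continuousAt, fun φ hφ => ?_⟩
  exact DifferentiableAt.comp (g := fun t => φ (s t)) (f := u) w (h.differentiableAt φ hφ) hu

/-- If all sections over an affine chart pull back to functions differentiable at the point, and
`s` stays in the chart, then `s` is holomorphic at the point. -/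
lemma holAt_of_affine {s : E → An.Pts X} {z : E} (U : X.Opens) (hUa : IsAffineOpen U)
    (hU : ∀ᶠ t in 𝓝 z, (s t).pt ∈ U)
    (hf : ∀ f : Γ(X, U), DifferentiableAt ℂ (fun t => Groth.Agent.An.H863.PtsCont.evAt (s t) U f) z) :
    HolAt s z := by
  have hc : ContinuousAt s z :=
    continuousAt_of_affine_all s z U hUa hU fun f => (hf f).continuousAt
  refine ⟨hc, fun φ hφ => ?_⟩
  obtain ⟨W, n, σ, G, hx, hG, he⟩ := hφ
  have h1 : ∀ i, DifferentiableAt ℂ (fun t => Groth.Agent.An.H863.PtsCont.evAt (s t) W (σ i)) z :=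
    fun i => Groth.Agent.Gaga.H277.DiffAt.differentiableAt_of_affine_all s z U hUa hU hf W (σ i) hx
  have h2 : DifferentiableAt ℂ
      (fun t => (fun i => Groth.Agent.An.H863.PtsCont.evAt (s t) W (σ i))) z :=
    differentiableAt_pi.2 h1
  have h3 : DifferentiableAt ℂ
      (fun t => G (fun i => Groth.Agent.An.H863.PtsCont.evAt (s t) W (σ i))) z :=
    DifferentiableAt.comp (g := G)
      (f := fun t => (fun i => Groth.Agent.An.H863.PtsCont.evAt (s t) W (σ i))) z
      hG.self_of_nhds h2
  exact h3.congr_of_eventuallyEq (hc.eventually he)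

/-- `HolOn` on an open set is `HolAt` at all points. -/
lemma HolOn.holAt {s : E → An.Pts X} {D : Set E} (h : HolOn s D) (hD : IsOpen D) {z : E}
    (hz : z ∈ D) : HolAt s z := by
  obtain ⟨U, hUa, hzU, -⟩ := exists_isAffineOpen_mem_and_subset (x := (s z).pt) (U := ⊤) trivial
  have hc : ContinuousAt s z := h.continuousOn.continuousAt (hD.mem_nhds hz)
  have hU : ∀ᶠ t in 𝓝 z, (s t).pt ∈ U := hc.eventually ((An.Pts.isOpen_preimage_pt U).mem_nhds hzU)
  refine holAt_of_affine U hUa hU fun f => ?_
  refine (h.differentiableOn U f).differentiableAt ?_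
  filter_upwards [hU, hD.mem_nhds hz] with t ht ht'
  exact ⟨ht', ht⟩

lemma holOn_of_holAt {s : E → An.Pts X} {D : Set E} (h : ∀ z ∈ D, HolAt s z) : HolOn s D :=
  ⟨fun z hz => (h z hz).continuousAt.continuousWithinAt, fun W g z hz =>
    ((h z hz.1).evAt hz.2 g).differentiableWithinAt⟩

lemma holOn_iff {s : E → An.Pts X} {D : Set E} (hD : IsOpen D) :
    HolOn s D ↔ ∀ z ∈ D, HolAt s z :=
  ⟨fun h _ hz => HolOn.holAt h hD hz, holOn_of_holAt⟩

/-- A continuous map between spaces of complex points, holomorphic at a point. -/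
structure HolMapAt (φ : An.Pts X → An.Pts Y) (x : An.Pts X) : Prop where
  continuousAt : ContinuousAt φ x
  chartAt : ∀ ψ : An.Pts Y → ℂ, ChartAt ψ (φ x) → ChartAt (fun z => ψ (φ z)) x

/-- A holomorphic map in the sense of the prelude pulls functions which are `ChartAt` back to
functions which are `ChartAt`. -/
lemma holMapAt_of_isHolMap {φ : C(An.Pts X, An.Pts Y)} (h : An.IsHolMap φ) (x : An.Pts X) :
    HolMapAt φ x := by
  refine ⟨φ.continuous.continuousAt, fun ψ hψ => ?_⟩
  obtain ⟨V, hxV, hV⟩ := hψ.exists_isChartFun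
  have h1 : (An.holPred Y).pred (U := V) (fun z => ψ z.1) :=
    An.holPred_of_chartAlg (Algebra.subset_adjoin (hV V le_rfl))
  have h2 := (holPred_iff _).1 (h V _ h1) x hxV
  refine h2.congr ?_
  have : ((Opens.map (TopCat.ofHom φ)).obj V : Set (An.Pts X)) ∈ 𝓝 x :=
    ((Opens.map (TopCat.ofHom φ)).obj V).isOpen.mem_nhds hxV
  filter_upwards [this] with z hz
  rw [ext0_of_mem _ hz]

/-- Conversely. -/
lemma isHolMap_of_holMapAt {φ : C(An.Pts X, An.Pts Y)} (h : ∀ x, HolMapAt φ x) :
    An.IsHolMap φ := by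
  intro V g hg
  rw [holPred_iff] at hg ⊢
  intro x hx
  have h1 := (h x).chartAt _ (hg (φ x) hx)
  refine h1.congr ?_
  filter_upwards [((Opens.map (TopCat.ofHom φ)).obj V).isOpen.mem_nhds hx] with z hz
  rw [ext0_of_mem _ hz]
  exact (ext0_of_mem (U := V) g (z := φ z) hz).symm

/-- The map on complex points of a morphism is holomorphic. -/
lemma holMapAt_map (f : X ⟶ Y) [f.IsOver An.SC] (x : An.Pts X) : HolMapAt (An.Pts.map f) x :=
  ⟨(An.Pts.continuous_map f).continuousAt, fun _ hψ => ChartAt.comp_map f hψ⟩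

lemma HolAt.comp_holMapAt {s : E → An.Pts X} {z : E} (h : HolAt s z) {φ : An.Pts X → An.Pts Y}
    (hφ : HolMapAt φ (s z)) : HolAt (fun t => φ (s t)) z :=
  ⟨ContinuousAt.comp (g := φ) (f := s) hφ.continuousAt h.continuousAt,
    fun ψ hψ => h.differentiableAt _ (hφ.chartAt ψ hψ)⟩

end Groth.Agent.Gaga.H978.HolAt
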