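import Groth.Agent.Gaga.H978.HolAt
import Groth.Agent.An.H863.PtsPullback
import Mathlib.AlgebraicGeometry.Morphisms.ClosedImmersion

/-!
# Criteria for `HolMapAt`: affine charts, products, closed immersions
-/

set_option autoImplicit false
set_option linter.dupNamespace false
open CategoryTheory AlgebraicGeometry Topology TopologicalSpace Opposite Filter

namespace Groth.Agent.Gaga.H978.HolCrit

open Groth.Agent.An.H863.PtsBasic Groth.Agent.An.H863.PtsCont Groth.Agent.Gaga.H978.HMap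
  Groth.Agent.Gaga.H990.ChartAt Groth.Agent.Gaga.H978.HolAt

variable {X Y Z T : Scheme.{0}} [X.Over An.SC] [Y.Over An.SC] [Z.Over An.SC] [T.Over An.SC]

lemma ChartAt.pow {φ : An.Pts X → ℂ} {x : An.Pts X} (h : ChartAt φ x) (n : ℕ) :
    ChartAt (fun z => φ z ^ n) x := by
  induction n with
  | zero => simpa using chartAt_const (1 : ℂ) x
  | succ n ih => simp only [pow_succ]; exact ih.mul h

/-- If evaluation of all sections over an affine chart `U` around `φ t₀` is `ChartAt` at `t₀`, then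
evaluation of every section near `φ t₀` is. -/
lemma chartAt_of_affine_all (φ : An.Pts T → An.Pts X) (t₀ : An.Pts T)
    (U : X.Opens) (hUa : IsAffineOpen U) (hU : ∀ᶠ t in 𝓝 t₀, (φ t).pt ∈ U)
    (hf : ∀ f : Γ(X, U), ChartAt (fun t => evAt (φ t) U f) t₀)
    (W : X.Opens) (f : Γ(X, W)) (hW : (φ t₀).pt ∈ W) :
    ChartAt (fun t => evAt (φ t) W f) t₀ := by
  have hU0 : (φ t₀).pt ∈ U := hU.self_of_nhds
  obtain ⟨h, hh, hx⟩ := hUa.exists_basicOpen_le (V := W) ⟨(φ t₀).pt, hW⟩ hU0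
  change (φ t₀).pt ∈ X.basicOpen h at hx
  have hev : ∀ᶠ t in 𝓝 t₀, (φ t).pt ∈ X.basicOpen h := by
    have h0 : evAt (φ t₀) U h ≠ 0 := by
      rw [evAt_of_mem hU0, ev_ne_zero_iff]; exact hx
    filter_upwards [hU, (hf h).continuousAt.eventually_ne h0] with t ht1 ht2
    rwa [evAt_of_mem ht1, ev_ne_zero_iff] at ht2
  -- f restricted to D(h) is a fraction a / h^n
  have := hUa.isLocalization_basicOpen h
  obtain ⟨n, a, ha⟩ := IsLocalization.Away.surj h (X.presheaf.map (homOfLE hh).op f)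
  have hle : X.basicOpen h ≤ U := X.basicOpen_le h
  have hres : ∀ g : Γ(X, U), algebraMap Γ(X, U) Γ(X, X.basicOpen h) g =
      X.presheaf.map (homOfLE hle).op g := fun g => rfl
  have key : ∀ t, (φ t).pt ∈ X.basicOpen h →
      evAt (φ t) W f = evAt (φ t) U a * (evAt (φ t) U h ^ n)⁻¹ := by
    intro t ht
    have htU : (φ t).pt ∈ U := hle ht
    have htW : (φ t).pt ∈ W := hh ht
    have hne : (φ t).ev U htU h ≠ 0 := by rw [ev_ne_zero_iff]; exact ht
    rw [evAt_of_mem htU, evAt_of_mem htU, evAt_of_mem htW]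
    rw [eq_mul_inv_iff_mul_eq₀ (pow_ne_zero n hne)]
    have e := congrArg (fun s => (φ t).ev (X.basicOpen h) ht s) ha
    simp only [hres, ev_mul, ev_pow, ev_res] at e
    exact e
  have hne : evAt (φ t₀) U h ^ n ≠ 0 := by
    refine pow_ne_zero n ?_
    rw [evAt_of_mem hU0, ev_ne_zero_iff]; exact hx
  refine ChartAt.congr (φ := fun t => evAt (φ t) U a * (evAt (φ t) U h ^ n)⁻¹) ?_ ?_
  · exact (hf a).mul ((ChartAt.pow (hf h) n).inv hne)
  · filter_upwards [hev] with t ht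
    exact key t ht

/-- A map to `X(ℂ)` is holomorphic at a point when all sections over an affine chart pull back to
holomorphic functions. -/
lemma holMapAt_of_affine_all (φ : An.Pts T → An.Pts X) (t₀ : An.Pts T)
    (U : X.Opens) (hUa : IsAffineOpen U) (hU : ∀ᶠ t in 𝓝 t₀, (φ t).pt ∈ U)
    (hf : ∀ f : Γ(X, U), ChartAt (fun t => evAt (φ t) U f) t₀) : HolMapAt φ t₀ := by
  have hc : ContinuousAt φ t₀ :=
    continuousAt_of_affine_all φ t₀ U hUa hU fun f => (hf f).continuousAt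
  refine ⟨hc, fun ψ hψ => ?_⟩
  obtain ⟨W, n, σ, G, hx, hG, he⟩ := hψ
  have h1 : ∀ i, ChartAt (fun t => evAt (φ t) W (σ i)) t₀ := fun i =>
    chartAt_of_affine_all φ t₀ U hUa hU hf W (σ i) hx
  exact (ChartAt.comp h1 G hG).congr (hc.eventually he)

/-- The sections over `U` whose evaluation along `φ` is `ChartAt` form a subring. -/
def chartSubring (φ : An.Pts T → An.Pts X) (t₀ : An.Pts T) (U : X.Opens)
    (hU : ∀ᶠ t in 𝓝 t₀, (φ t).pt ∈ U) : Subring Γ(X, U) where
  carrier := {f | ChartAt (fun t => evAt (φ t) U f) t₀}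
  mul_mem' {f g} hf hg := by
    rw [Set.mem_ofPred]
    simp only [evAt_mul]
    exact ChartAt.mul (Set.mem_ofPred.mp hf) (Set.mem_ofPred.mp hg)
  one_mem' := by
    rw [Set.mem_ofPred]
    refine ChartAt.congr (φ := fun _ => (1 : ℂ)) (chartAt_const _ _) ?_
    filter_upwards [hU] with t ht
    rw [evAt_of_mem ht, ev_one]
  add_mem' {f g} hf hg := by
    rw [Set.mem_ofPred]
    simp only [evAt_add]
    exact ChartAt.add (Set.mem_ofPred.mp hf) (Set.mem_ofPred.mp hg)
  zero_mem' := by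
    rw [Set.mem_ofPred]
    simpa using chartAt_const (0 : ℂ) t₀
  neg_mem' {f} hf := by
    rw [Set.mem_ofPred]
    simp only [evAt_neg]
    have := ChartAt.mul (chartAt_const (-1 : ℂ) t₀) (Set.mem_ofPred.mp hf)
    simpa using this

/-- Holomorphy at a point, tested on generators of the sections over an affine chart. -/
lemma holMapAt_of_affine (φ : An.Pts T → An.Pts X) (t₀ : An.Pts T)
    (U : X.Opens) (hUa : IsAffineOpen U) (hU : ∀ᶠ t in 𝓝 t₀, (φ t).pt ∈ U)
    (G : Set Γ(X, U)) (hG : Subring.closure G = ⊤)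
    (hf : ∀ f ∈ G, ChartAt (fun t => evAt (φ t) U f) t₀) : HolMapAt φ t₀ := by
  refine holMapAt_of_affine_all φ t₀ U hUa hU fun f => ?_
  have : (⊤ : Subring Γ(X, U)) ≤ chartSubring φ t₀ U hU := by
    rw [← hG, Subring.closure_le]
    exact hf
  exact this (Subring.mem_top f)

/-- Holomorphic maps into a fibre product. -/
lemma holMapAt_pullback {S : Scheme.{0}} [S.Over An.SC] (f : X ⟶ S) (g : Y ⟶ S) [f.IsOver An.SC]
    [g.IsOver An.SC] (φ : An.Pts T → An.Pts (Limits.pullback f g)) (t₀ : An.Pts T)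
    (h1 : HolMapAt (fun t => An.Pts.map (Limits.pullback.fst f g) (φ t)) t₀)
    (h2 : HolMapAt (fun t => An.Pts.map (Limits.pullback.snd f g) (φ t)) t₀) :
    HolMapAt φ t₀ := by
  set z₀ := φ t₀ with hz₀
  set x₀ := An.Pts.map (Limits.pullback.fst f g) z₀ with hx₀
  set y₀ := An.Pts.map (Limits.pullback.snd f g) z₀ with hy₀
  let s₀ : S := f x₀.pt
  have hs₀ : g y₀.pt = s₀ := by
    change g y₀.pt = f x₀.pt
    rw [← An.Pts.pt_map, ← An.Pts.pt_map, hx₀, hy₀, An.Pts.map_pullback_condition]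
  obtain ⟨_, ⟨US, hUS, rfl⟩, hsU, -⟩ :=
    S.isBasis_affineOpens.exists_subset_of_mem_open (Set.mem_univ s₀) isOpen_univ
  obtain ⟨_, ⟨UX, hUX, rfl⟩, hxU, hUXS⟩ :=
    X.isBasis_affineOpens.exists_subset_of_mem_open (a := x₀.pt) (u := (f ⁻¹ᵁ US : X.Opens))
      hsU (f ⁻¹ᵁ US).isOpen
  obtain ⟨_, ⟨UY, hUY, rfl⟩, hyU, hUYS⟩ :=
    Y.isBasis_affineOpens.exists_subset_of_mem_open (a := y₀.pt) (u := (g ⁻¹ᵁ US : Y.Opens))
      (by change g y₀.pt ∈ US; rw [hs₀]; exact hsU) (g ⁻¹ᵁ US).isOpen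
  have hUXS' : UX ≤ f ⁻¹ᵁ US := hUXS
  have hUYS' : UY ≤ g ⁻¹ᵁ US := hUYS
  let W : (Limits.pullback f g).Opens :=
    Limits.pullback.fst f g ⁻¹ᵁ UX ⊓ Limits.pullback.snd f g ⁻¹ᵁ UY
  have H : IsPullback (Limits.pullback.fst f g) (Limits.pullback.snd f g) f g :=
    IsPullback.of_hasPullback f g
  have hW : IsAffineOpen W := by
    have : IsAffine _ := hUS
    have : IsAffine _ := hUX
    have : IsAffine _ := hUY
    exact .of_isIso (Scheme.Hom.isPullback_resLE H hUYS' hUXS' rfl).isoPullback.hom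
  have hpush := (isIso_pushoutSection_iff H hUYS' hUXS' (UY := W) rfl).mp
    (isIso_pushoutSection_of_isAffineOpen H hUYS' hUXS' rfl hUS hUY hUX)
  have hgen := Groth.Agent.An.H863.PtsPullback.closure_range_union_eq_top hpush
  have hmemW : ∀ t, (φ t).pt ∈ W ↔ (An.Pts.map (Limits.pullback.fst f g) (φ t)).pt ∈ UX ∧
      (An.Pts.map (Limits.pullback.snd f g) (φ t)).pt ∈ UY := by
    intro q
    rw [An.Pts.pt_map, An.Pts.pt_map]
    rfl
  have hev : ∀ᶠ t in 𝓝 t₀, (φ t).pt ∈ W := by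
    have e1 := h1.continuousAt.eventually ((An.Pts.isOpen_preimage_pt UX).mem_nhds hxU)
    have e2 := h2.continuousAt.eventually ((An.Pts.isOpen_preimage_pt UY).mem_nhds hyU)
    filter_upwards [e1, e2] with q h1 h2
    exact (hmemW q).2 ⟨h1, h2⟩
  refine holMapAt_of_affine φ t₀ W hW hev _ hgen ?_
  rintro _ (⟨a, rfl⟩ | ⟨b, rfl⟩)
  · refine ChartAt.congr (h1.chartAt _ (chartAt_evAt UX a hxU)) ?_
    filter_upwards [hev] with q hq
    exact Groth.Agent.An.H863.PtsPullback.evAt_appLE (Limits.pullback.fst f g) (φ q) UX W _ hq a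
  · refine ChartAt.congr (h2.chartAt _ (chartAt_evAt UY b hyU)) ?_
    filter_upwards [hev] with q hq
    exact Groth.Agent.An.H863.PtsPullback.evAt_appLE (Limits.pullback.snd f g) (φ q) UY W _ hq b

/-- Holomorphic maps into a closed subscheme. -/
lemma holMapAt_closedImmersion (j : X ⟶ Z) [j.IsOver An.SC] [IsClosedImmersion j]
    (φ : An.Pts T → An.Pts X) (t₀ : An.Pts T)
    (h : HolMapAt (fun t => An.Pts.map j (φ t)) t₀) : HolMapAt φ t₀ := by
  obtain ⟨U, hUa, hzU, -⟩ := exists_isAffineOpen_mem_and_subset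
    (x := (An.Pts.map j (φ t₀)).pt) (U := ⊤) trivial
  have hV : IsAffineOpen (j ⁻¹ᵁ U) := hUa.preimage j
  have hsurj : Function.Surjective (j.app U) := j.app_surjective U hUa
  have hev : ∀ᶠ t in 𝓝 t₀, (φ t).pt ∈ j ⁻¹ᵁ U := by
    filter_upwards [h.continuousAt.eventually ((An.Pts.isOpen_preimage_pt U).mem_nhds hzU)]
      with t ht
    rw [An.Pts.pt_map] at ht
    exact ht
  refine holMapAt_of_affine_all φ t₀ _ hV hev fun f => ?_
  obtain ⟨g, rfl⟩ := hsurj f
  refine ChartAt.congr (h.chartAt _ (chartAt_evAt U g hzU)) ?_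
  filter_upwards [hev] with t ht
  have h1 := Groth.Agent.An.H863.PtsPullback.evAt_appLE j (φ t) U (j ⁻¹ᵁ U) le_rfl ht g
  rw [Scheme.Hom.appLE_eq_app] at h1
  exact h1

end Groth.Agent.Gaga.H978.HolCrit
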