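import Groth.Agent.Gaga.H978.HolAt
import Mathlib.Analysis.Complex.CauchyIntegral
import Mathlib.Analysis.Analytic.Uniqueness
import Mathlib.Analysis.Convex.Topology

/-!
# Identity principles

* `eq_zero_of_convex`: a complex-differentiable function on a convex open subset of a complex
  normed space which vanishes near one point vanishes everywhere;
* `ident`: a holomorphic map from a connected space with local parametrisations to `Z(ℂ)`, mapping
  a nonempty open set into a Zariski closed subset, maps everything into it.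
-/

set_option autoImplicit false
set_option linter.dupNamespace false
open CategoryTheory AlgebraicGeometry Topology TopologicalSpace Opposite Filter

namespace Groth.Agent.Gaga.H978.Ident

open Groth.Agent.An.H863.PtsBasic Groth.Agent.An.H863.PtsCont Groth.Agent.Gaga.H978.HMap
  Groth.Agent.Gaga.H990.ChartAt Groth.Agent.Gaga.H978.HolAt

variable {E : Type*} [NormedAddCommGroup E] [NormedSpace ℂ E]

/-- Identity theorem on convex open sets of complex normed spaces. -/
theorem eq_zero_of_convex {D : Set E} (hD : IsOpen D) (hc : Convex ℝ D) {f : E → ℂ}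
    (hf : DifferentiableOn ℂ f D) {a : E} (ha : a ∈ D) (h0 : f =ᶠ[𝓝 a] 0) {z : E} (hz : z ∈ D) :
    f z = 0 := by
  let γ : ℂ → E := fun t => a + t • (z - a)
  have hγd : Differentiable ℂ γ := by
    intro t
    exact (differentiableAt_const a).add ((differentiableAt_id).smul_const (z - a))
  have hγc : Continuous γ := hγd.continuous
  have hL : IsOpen (γ ⁻¹' D) := hD.preimage hγc
  have hLc : Convex ℝ (γ ⁻¹' D) := by
    intro s hs t ht p q hp hq hpq
    have h1 := hc hs ht hp hq hpq
    change γ (p • s + q • t) ∈ D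
    have h2 : γ (p • s + q • t) = p • γ s + q • γ t := by
      simp only [γ]
      rw [smul_add, smul_add, add_smul, smul_assoc, smul_assoc]
      have : a = p • a + q • a := by rw [← add_smul, hpq, one_smul]
      nth_rewrite 1 [this]
      abel
    rw [h2]
    exact h1
  have han : AnalyticOnNhd ℂ (fun t => f (γ t)) (γ ⁻¹' D) := by
    refine DifferentiableOn.analyticOnNhd ?_ hL
    exact hf.comp hγd.differentiableOn fun t ht => ht
  have h00 : (0 : ℂ) ∈ γ ⁻¹' D := by
    change γ 0 ∈ D
    simpa [γ] using ha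
  have h11 : (1 : ℂ) ∈ γ ⁻¹' D := by
    change γ 1 ∈ D
    simpa [γ] using hz
  have hev : (fun t => f (γ t)) =ᶠ[𝓝 (0 : ℂ)] 0 := by
    have h1 : Tendsto γ (𝓝 0) (𝓝 a) := by
      have := hγc.continuousAt (x := (0 : ℂ))
      have h2 : γ 0 = a := by simp [γ]
      rw [ContinuousAt, h2] at this
      exact this
    exact h1.eventually h0
  have h2 := han.eqOn_zero_of_preconnected_of_eventuallyEq_zero hLc.isPreconnected h00 hev h11
  have h3 : γ 1 = z := by simp [γ]
  simpa [h3] using h2

variable {Z : Scheme.{0}} [Z.Over An.SC]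

/-- Membership of a complex point of an affine open in a closed set, tested by functions. -/
lemma mem_closed_of_evAt {C : Set Z} (hC : IsClosed C) {U : Z.Opens} (hU : IsAffineOpen U)
    {p : An.Pts Z} (hp : p.pt ∈ U)
    (h : ∀ f : Γ(Z, U), Disjoint (Z.basicOpen f : Set Z) C → evAt p U f = 0) : p.pt ∈ C := by
  by_contra hpC
  obtain ⟨f, hf, hpf⟩ := hU.exists_basicOpen_le (V := ⟨Cᶜ, hC.isOpen_compl⟩) ⟨p.pt, hpC⟩ hp
  have h1 := h f (Set.disjoint_left.2 fun x hx hxC => hf hx hxC)
  rw [evAt_of_mem hp, ev_eq_zero_iff] at h1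
  exact h1 hpf

lemma evAt_eq_zero_of_mem {C : Set Z} {U : Z.Opens} (f : Γ(Z, U))
    (hf : Disjoint (Z.basicOpen f : Set Z) C) {p : An.Pts Z} (hp : p.pt ∈ C) :
    evAt p U f = 0 := by
  by_cases hU : p.pt ∈ U
  · rw [evAt_of_mem hU, ev_eq_zero_iff]
    exact fun h => Set.disjoint_left.1 hf h hp
  · exact evAt_of_notMem hU f

/-- **Identity principle** for holomorphic maps to spaces of complex points. -/
theorem ident {T : Type*} [TopologicalSpace T] [PreconnectedSpace T] (ψ : T → An.Pts Z)
    (hψ : ∀ x : T, ∃ c : OpenPartialHomeomorph E T, x ∈ c.target ∧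
      ∀ z ∈ c.source, HolAt (fun t => ψ (c t)) z)
    {C : Set Z} (hC : IsClosed C) {O : Set T} (hO : IsOpen O) (hne : O.Nonempty)
    (h : ∀ x ∈ O, (ψ x).pt ∈ C) (x : T) : (ψ x).pt ∈ C := by
  let T' : Set T := interior {x | (ψ x).pt ∈ C}
  have hOT : O ⊆ T' := interior_maximal h hO
  have hsub : T' ⊆ {x | (ψ x).pt ∈ C} := interior_subset
  have hcl : IsClosed T' := by
    rw [← closure_subset_iff_isClosed]
    intro x₀ hx₀
    obtain ⟨c, hxc, hc⟩ := hψ x₀
    set z₀ := c.symm x₀ with hz₀
    have hz₀s : z₀ ∈ c.source := c.map_target hxc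
    have hcz₀ : c z₀ = x₀ := c.right_inv hxc
    obtain ⟨U, hUa, hxU, -⟩ :=
      exists_isAffineOpen_mem_and_subset (x := (ψ x₀).pt) (U := ⊤) trivial
    -- a ball on which everything takes place
    have hcont : ContinuousAt (fun t => ψ (c t)) z₀ := (hc z₀ hz₀s).continuousAt
    have hU' : ∀ᶠ t in 𝓝 z₀, (ψ (c t)).pt ∈ U := by
      refine hcont.eventually ((An.Pts.isOpen_preimage_pt U).mem_nhds ?_)
      change (ψ (c z₀)).pt ∈ U
      rw [hcz₀]
      exact hxU
    obtain ⟨r, hr, hball⟩ := Metric.eventually_nhds_iff_ball.1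
      (hU'.and (c.open_source.eventually_mem hz₀s))
    set B := Metric.ball z₀ r with hB
    have hBs : B ⊆ c.source := fun t ht => (hball t ht).2
    have hBU : ∀ t ∈ B, (ψ (c t)).pt ∈ U := fun t ht => (hball t ht).1
    have hcB : IsOpen (c '' B) := c.isOpen_image_of_subset_source Metric.isOpen_ball hBs
    have hx₀B : x₀ ∈ c '' B := ⟨z₀, Metric.mem_ball_self hr, hcz₀⟩
    obtain ⟨_, ⟨z₁, hz₁B, rfl⟩, hz₁T⟩ := mem_closure_iff.1 hx₀ _ hcB hx₀B
    have hT'o : IsOpen T' := isOpen_interior
    have hz₁ev : ∀ᶠ t in 𝓝 z₁, c t ∈ T' :=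
      (c.continuousAt (hBs hz₁B)).eventually (hT'o.mem_nhds hz₁T)
    refine mem_interior.2 ⟨c '' B, ?_, hcB, hx₀B⟩
    rintro _ ⟨z, hzB, rfl⟩
    refine mem_closed_of_evAt hC hUa (hBU z hzB) fun f hf => ?_
    have hd : DifferentiableOn ℂ (fun t => evAt (ψ (c t)) U f) B := fun t ht =>
      ((hc t (hBs ht)).evAt (hBU t ht) f).differentiableWithinAt
    refine eq_zero_of_convex Metric.isOpen_ball (convex_ball z₀ r) hd hz₁B ?_ hzB
    filter_upwards [hz₁ev] with t ht
    exact evAt_eq_zero_of_mem f hf (hsub ht)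
  have hclopen : IsClopen T' := ⟨hcl, isOpen_interior⟩
  have huniv : T' = Set.univ := hclopen.eq_univ (hne.mono hOT)
  have : x ∈ T' := by rw [huniv]; trivial
  exact hsub this

end Groth.Agent.Gaga.H978.Ident
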