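import Groth.Agent.Gaga.H978.Ident
import Groth.Agent.An.H868.Chart

/-!
# Identity principle for two holomorphic maps
-/

set_option autoImplicit false
set_option linter.dupNamespace false
open CategoryTheory AlgebraicGeometry Topology TopologicalSpace Opposite Filter

namespace Groth.Agent.Gaga.H978.Ident2

open Groth.Agent.An.H863.PtsBasic Groth.Agent.An.H863.PtsCont Groth.Agent.Gaga.H978.HMap
  Groth.Agent.Gaga.H990.ChartAt Groth.Agent.Gaga.H978.HolAt Groth.Agent.Gaga.H978.Ident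

variable {E : Type*} [NormedAddCommGroup E] [NormedSpace ℂ E]
variable {Z : Scheme.{0}} [Z.Over An.SC]

/-- **Identity principle** for two holomorphic maps from a connected space with local
parametrisations to the complex points of a separated scheme. -/
theorem ident₂ [LocallyOfFiniteType (Z ↘ An.SC)] {T : Type*} [TopologicalSpace T]
    [PreconnectedSpace T] [T2Space (An.Pts Z)] (ψ₁ ψ₂ : T → An.Pts Z)
    (hψ : ∀ x : T, ∃ c : OpenPartialHomeomorph E T, x ∈ c.target ∧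
      ∀ z ∈ c.source, HolAt (fun t => ψ₁ (c t)) z ∧ HolAt (fun t => ψ₂ (c t)) z)
    {O : Set T} (hO : IsOpen O) (hne : O.Nonempty)
    (h : ∀ x ∈ O, ψ₁ x = ψ₂ x) (x : T) : ψ₁ x = ψ₂ x := by
  let T' : Set T := interior {x | ψ₁ x = ψ₂ x}
  have hOT : O ⊆ T' := interior_maximal h hO
  have hsub : T' ⊆ {x | ψ₁ x = ψ₂ x} := interior_subset
  have hcontT : ∀ x : T, ContinuousAt ψ₁ x ∧ ContinuousAt ψ₂ x := by
    intro x
    obtain ⟨c', hxc, hc'⟩ := hψ x
    have h0 := hc' _ (c'.map_target hxc)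
    constructor
    · have h2 : ContinuousAt (fun t => ψ₁ (c' (c'.symm t))) x :=
        ContinuousAt.comp (g := fun t => ψ₁ (c' t)) (f := c'.symm) h0.1.continuousAt
          (c'.continuousAt_symm hxc)
      refine h2.congr ?_
      filter_upwards [c'.open_target.mem_nhds hxc] with t ht
      rw [c'.right_inv ht]
    · have h2 : ContinuousAt (fun t => ψ₂ (c' (c'.symm t))) x :=
        ContinuousAt.comp (g := fun t => ψ₂ (c' t)) (f := c'.symm) h0.2.continuousAt
          (c'.continuousAt_symm hxc)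
      refine h2.congr ?_
      filter_upwards [c'.open_target.mem_nhds hxc] with t ht
      rw [c'.right_inv ht]
  have hcl0 : IsClosed {x | ψ₁ x = ψ₂ x} :=
    isClosed_eq (continuous_iff_continuousAt.2 fun x => (hcontT x).1)
      (continuous_iff_continuousAt.2 fun x => (hcontT x).2)
  have hcl : IsClosed T' := by
    rw [← closure_subset_iff_isClosed]
    intro x₀ hx₀
    have hx₀e : ψ₁ x₀ = ψ₂ x₀ := (closure_minimal hsub hcl0) hx₀
    obtain ⟨c, hxc, hc⟩ := hψ x₀
    set z₀ := c.symm x₀ with hz₀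
    have hz₀s : z₀ ∈ c.source := c.map_target hxc
    have hcz₀ : c z₀ = x₀ := c.right_inv hxc
    obtain ⟨U, hUa, hxU, -⟩ :=
      exists_isAffineOpen_mem_and_subset (x := (ψ₁ x₀).pt) (U := ⊤) trivial
    have hU₁ : ∀ᶠ t in 𝓝 z₀, (ψ₁ (c t)).pt ∈ U := by
      refine (hc z₀ hz₀s).1.continuousAt.eventually ((An.Pts.isOpen_preimage_pt U).mem_nhds ?_)
      change (ψ₁ (c z₀)).pt ∈ U
      rw [hcz₀]
      exact hxU
    have hU₂ : ∀ᶠ t in 𝓝 z₀, (ψ₂ (c t)).pt ∈ U := by
      refine (hc z₀ hz₀s).2.continuousAt.eventually ((An.Pts.isOpen_preimage_pt U).mem_nhds ?_)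
      change (ψ₂ (c z₀)).pt ∈ U
      rw [hcz₀, ← hx₀e]
      exact hxU
    obtain ⟨r, hr, hball⟩ := Metric.eventually_nhds_iff_ball.1
      ((hU₁.and hU₂).and (c.open_source.eventually_mem hz₀s))
    set B := Metric.ball z₀ r with hB
    have hBs : B ⊆ c.source := fun t ht => (hball t ht).2
    have hBU₁ : ∀ t ∈ B, (ψ₁ (c t)).pt ∈ U := fun t ht => (hball t ht).1.1
    have hBU₂ : ∀ t ∈ B, (ψ₂ (c t)).pt ∈ U := fun t ht => (hball t ht).1.2
    have hcB : IsOpen (c '' B) := c.isOpen_image_of_subset_source Metric.isOpen_ball hBs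
    have hx₀B : x₀ ∈ c '' B := ⟨z₀, Metric.mem_ball_self hr, hcz₀⟩
    obtain ⟨_, ⟨z₁, hz₁B, rfl⟩, hz₁T⟩ := mem_closure_iff.1 hx₀ _ hcB hx₀B
    have hT'o : IsOpen T' := isOpen_interior
    have hz₁ev : ∀ᶠ t in 𝓝 z₁, c t ∈ T' :=
      (c.continuousAt (hBs hz₁B)).eventually (hT'o.mem_nhds hz₁T)
    refine mem_interior.2 ⟨c '' B, ?_, hcB, hx₀B⟩
    rintro _ ⟨z, hzB, rfl⟩
    refine Groth.Agent.An.H868.Chart.ext_of_ev hUa (hBU₁ z hzB) (hBU₂ z hzB) fun f => ?_
    rw [← evAt_of_mem (hBU₁ z hzB), ← evAt_of_mem (hBU₂ z hzB), ← sub_eq_zero]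
    have hd : DifferentiableOn ℂ (fun t => evAt (ψ₁ (c t)) U f - evAt (ψ₂ (c t)) U f) B :=
      fun t ht => (((hc t (hBs ht)).1.evAt (hBU₁ t ht) f).sub
        ((hc t (hBs ht)).2.evAt (hBU₂ t ht) f)).differentiableWithinAt
    refine eq_zero_of_convex Metric.isOpen_ball (convex_ball z₀ r) hd hz₁B ?_ hzB
    filter_upwards [hz₁ev] with t ht
    have h5 : ψ₁ (c t) = ψ₂ (c t) := hsub ht
    simp [h5]
  have hclopen : IsClopen T' := ⟨hcl, isOpen_interior⟩
  have huniv : T' = Set.univ := hclopen.eq_univ (hne.mono hOT)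
  have : x ∈ T' := by rw [huniv]; trivial
  exact hsub this

end Groth.Agent.Gaga.H978.Ident2
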