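import Groth.Agent.Gaga.H978.Ident
import Mathlib.Analysis.Meromorphic.Basic

/-!
# Regular functions pull back to meromorphic functions along holomorphic maps of curves
-/

set_option autoImplicit false
set_option linter.dupNamespace false
open CategoryTheory AlgebraicGeometry Topology TopologicalSpace Opposite Filter

namespace Groth.Agent.Gaga.H978.Mero

open Groth.Agent.An.H863.PtsBasic Groth.Agent.An.H863.PtsCont Groth.Agent.Gaga.H978.HMap
  Groth.Agent.Gaga.H990.ChartAt Groth.Agent.Gaga.H978.HolAt Groth.Agent.Gaga.H978.Ident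

variable {Z : Scheme.{0}} [Z.Over An.SC]

/-- On a basic open of an affine open inside `Z₁`, a section over `Z₁` is a quotient. -/
lemma exists_fraction {U Z₁ : Z.Opens} (hU : IsAffineOpen U) (y : Γ(Z, Z₁)) (f : Γ(Z, U))
    (hf : Z.basicOpen f ≤ Z₁) : ∃ (a : Γ(Z, U)) (n : ℕ), ∀ p : An.Pts Z,
      p.pt ∈ Z.basicOpen f → evAt p Z₁ y = evAt p U a / evAt p U f ^ n := by
  have := hU.isLocalization_basicOpen f
  obtain ⟨n, a, ha⟩ := IsLocalization.Away.surj f (Z.presheaf.map (homOfLE hf).op y)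
  have hle : Z.basicOpen f ≤ U := Z.basicOpen_le f
  have hres : ∀ g : Γ(Z, U), algebraMap Γ(Z, U) Γ(Z, Z.basicOpen f) g =
      Z.presheaf.map (homOfLE hle).op g := fun g => rfl
  refine ⟨a, n, fun p hp => ?_⟩
  have htU : p.pt ∈ U := hle hp
  have htW : p.pt ∈ Z₁ := hf hp
  have hne : p.ev U htU f ≠ 0 := by rw [ev_ne_zero_iff]; exact hp
  rw [evAt_of_mem htU, evAt_of_mem htU, evAt_of_mem htW, eq_div_iff (pow_ne_zero n hne)]
  have e := congrArg (fun s => p.ev (Z.basicOpen f) hp s) ha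
  simp only [hres, ev_mul, ev_pow, Groth.Agent.An.H863.PtsBasic.ev_res] at e
  exact e

theorem meromorphicAt {T : Type*} [TopologicalSpace T] [PreconnectedSpace T] (ψ : T → An.Pts Z)
    (hψ : ∀ x : T, ∃ c : OpenPartialHomeomorph ℂ T, x ∈ c.target ∧
      ∀ z ∈ c.source, HolAt (fun t => ψ (c t)) z)
    (Z₁ : Z.Opens) (y : Γ(Z, Z₁)) (t₀ : T) (ht₀ : (ψ t₀).pt ∈ Z₁)
    (c : OpenPartialHomeomorph ℂ T) (hc : ∀ z ∈ c.source, HolAt (fun t => ψ (c t)) z)
    (z : ℂ) (hz : z ∈ c.source) :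
    MeromorphicAt (fun t => evAt (ψ (c t)) Z₁ y) z := by
  obtain ⟨U, hUa, hxU, -⟩ :=
    exists_isAffineOpen_mem_and_subset (x := (ψ (c z)).pt) (U := ⊤) trivial
  have hcont : ContinuousAt (fun t => ψ (c t)) z := (hc z hz).continuousAt
  have hcontT : ∀ x : T, ContinuousAt ψ x := by
    intro x
    obtain ⟨c', hxc, hc'⟩ := hψ x
    have h1 : ContinuousAt (fun t => ψ (c' t)) (c'.symm x) := (hc' _ (c'.map_target hxc)).continuousAt
    have h2 : ContinuousAt (fun t => ψ (c' (c'.symm t))) x :=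
      ContinuousAt.comp (g := fun t => ψ (c' t)) (f := c'.symm) h1 (c'.continuousAt_symm hxc)
    refine h2.congr ?_
    filter_upwards [c'.open_target.mem_nhds hxc] with t ht
    rw [c'.right_inv ht]
  have hcontψ : Continuous ψ := continuous_iff_continuousAt.2 hcontT
  -- a point of `T` mapping to `U ⊓ Z₁`
  obtain ⟨t₁, ht₁U, ht₁Z⟩ : ∃ t₁, (ψ t₁).pt ∈ U ∧ (ψ t₁).pt ∈ Z₁ := by
    by_contra hcon
    push Not at hcon
    have hO : IsOpen {t | (ψ t).pt ∈ U} := (An.Pts.isOpen_preimage_pt U).preimage hcontψ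
    exact ident ψ hψ Z₁.2.isClosed_compl hO ⟨c z, hxU⟩ (fun x hx => hcon x hx) t₀ ht₀
  obtain ⟨f, hf, hpf⟩ := hUa.exists_basicOpen_le (V := Z₁) ⟨(ψ t₁).pt, ht₁Z⟩ ht₁U
  obtain ⟨a, n, han⟩ := exists_fraction hUa y f hf
  have hUev : ∀ᶠ t in 𝓝 z, (ψ (c t)).pt ∈ U :=
    hcont.eventually ((An.Pts.isOpen_preimage_pt U).mem_nhds hxU)
  have hana : ∀ g : Γ(Z, U), AnalyticAt ℂ (fun t => evAt (ψ (c t)) U g) z := by
    intro g
    rw [Complex.analyticAt_iff_eventually_differentiableAt]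
    filter_upwards [hUev, c.open_source.mem_nhds hz] with t ht ht'
    exact (hc t ht').evAt ht g
  have hF : ∀ᶠ t in 𝓝[≠] z, evAt (ψ (c t)) U f ≠ 0 := by
    rcases (hana f).eventually_eq_zero_or_eventually_ne_zero with h | h
    · exfalso
      obtain ⟨r, hr, hball⟩ := Metric.eventually_nhds_iff_ball.1
        ((h.and hUev).and (c.open_source.eventually_mem hz))
      have hBs : Metric.ball z r ⊆ c.source := fun t ht => (hball t ht).2
      refine ident ψ hψ (Z.basicOpen f).2.isClosed_compl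
        (c.isOpen_image_of_subset_source Metric.isOpen_ball hBs)
        ⟨c z, z, Metric.mem_ball_self hr, rfl⟩ ?_ t₁ hpf
      rintro _ ⟨t, ht, rfl⟩ hmem
      have h1 := (hball t ht).1.1
      rw [evAt_of_mem (hball t ht).1.2, ev_eq_zero_iff] at h1
      exact h1 hmem
    · exact h
  have hq : MeromorphicAt (fun t => evAt (ψ (c t)) U a / evAt (ψ (c t)) U f ^ n) z :=
    (hana a).meromorphicAt.fun_div ((hana f).meromorphicAt.fun_pow n)
  refine hq.congr ?_
  filter_upwards [hF, hUev.filter_mono nhdsWithin_le_nhds] with t ht htU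
  refine (han _ ?_).symm
  rwa [evAt_of_mem htU, ev_ne_zero_iff] at ht

end Groth.Agent.Gaga.H978.Mero
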