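import Groth.Agent.Gaga.H978.SubRing
import Groth.Agent.Gaga.H978.GenEt

/-!
# Algebraic model of finitely many algebraic holomorphic functions
-/

set_option autoImplicit false

namespace Groth.Agent.Gaga.H978.Model

open Groth.Agent.Gaga.H66.HolRing

open Topology in
/-- Let `α : A₁ → Hol D`, `β : A₂ → Hol D` be two homomorphisms from finite type `ℂ`-algebras to
the ring of holomorphic functions on a convex open set `D ⊆ ℂⁿ`, with algebraic values.  They
factor through a domain `R`, separated by the evaluations at the points of `D`, which becomes etale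
over the polynomial ring after inverting an element `r ≠ 0`. -/
theorem exists_model {n : ℕ} {D : Set (Fin n → ℂ)} (hD : IsOpen D) (hDc : Convex ℝ D)
    (hne : D.Nonempty) {A₁ A₂ : Type} [CommRing A₁] [CommRing A₂] (κ₁ : ℂ →+* A₁) (κ₂ : ℂ →+* A₂)
    (h₁ : κ₁.FiniteType) (h₂ : κ₂.FiniteType) (α : A₁ →+* Hol D) (β : A₂ →+* Hol D)
    (hα : α.comp κ₁ = algebraMap ℂ (Hol D)) (hβ : β.comp κ₂ = algebraMap ℂ (Hol D))
    (halgα : ∀ a, IsAlgebraic (MvPolynomial (Fin n) ℂ) (α a))
    (halgβ : ∀ b, IsAlgebraic (MvPolynomial (Fin n) ℂ) (β b)) :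
    ∃ (R : Type) (_ : CommRing R) (_ : IsDomain R) (θ : MvPolynomial (Fin n) ℂ →+* R)
      (a : A₁ →+* R) (b : A₂ →+* R) (ρ : D → (R →+* ℂ)) (r : R),
      r ≠ 0 ∧ ((algebraMap R (Localization.Away r)).comp θ).Etale ∧
      (∀ z x, ρ z (a x) = ev z (α x)) ∧ (∀ z x, ρ z (b x) = ev z (β x)) ∧
      (∀ z p, ρ z (θ p) = MvPolynomial.eval z.1 p) ∧
      (∀ x : R, ∃ g : (Fin n → ℂ) → ℂ, (∀ z ∈ D, ContinuousAt g z) ∧ ∀ z : D, ρ z x = g z) ∧
      (∀ x : R, (∀ z, ρ z x = 0) → x = 0) ∧
      a.comp κ₁ = θ.comp MvPolynomial.C ∧ b.comp κ₂ = θ.comp MvPolynomial.C := by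
  have := isDomain hD hDc hne
  obtain ⟨R, hαR, hβR, hft, halg⟩ :=
    SubRing.exists_subalgebra hD hDc hne κ₁ κ₂ h₁ h₂ α β hα hβ halgα halgβ
  have hinj : Function.Injective (algebraMap (MvPolynomial (Fin n) ℂ) R) := by
    have h3 := SubRing.faithful hD hne
    intro p q hpq
    exact h3 (congrArg (fun x : R => (x : Hol D)) hpq)
  have : FaithfulSMul (MvPolynomial (Fin n) ℂ) R := (faithfulSMul_iff_algebraMap_injective _ _).2 hinj
  obtain ⟨r, hr, het⟩ := GenEt.exists_etale (A := MvPolynomial (Fin n) ℂ) (R := R)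
  let ρ : D → (R →+* ℂ) := fun z => (ev z : Hol D →+* ℂ).comp R.val.toRingHom
  have hρ : ∀ z (x : R), ρ z x = ev z (x : Hol D) := fun z x => rfl
  have hsep : ∀ x : R, (∀ z, ρ z x = 0) → x = 0 := by
    intro x hx
    apply Subtype.ext
    refine ext_ev fun z => ?_
    rw [← hρ, hx z]
    exact (map_zero (ev z)).symm
  have hC : ∀ (c : ℂ) z, ρ z (algebraMap (MvPolynomial (Fin n) ℂ) R (MvPolynomial.C c)) = c := by
    intro c z
    have h4 := ev_algebraMap D z (MvPolynomial.C c)
    rw [MvPolynomial.eval_C] at h4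
    exact h4
  have hdiff : ∀ x y : R, (∀ z, ρ z x = ρ z y) → x = y := by
    intro x y h
    rw [← sub_eq_zero]
    exact hsep _ fun z => by rw [map_sub, h z, sub_self]
  refine ⟨R, inferInstance, inferInstance, algebraMap _ _,
    α.codRestrict R.toSubring hαR, β.codRestrict R.toSubring hβR, ρ, r, hr, ?_, fun _ _ => rfl,
    fun _ _ => rfl, fun z p => ev_algebraMap D z p, ?_, hsep, ?_, ?_⟩
  · have h5 : algebraMap (MvPolynomial (Fin n) ℂ) (Localization.Away r) =
        (algebraMap R (Localization.Away r)).comp (algebraMap (MvPolynomial (Fin n) ℂ) R) :=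
      IsScalarTower.algebraMap_eq _ _ _
    rw [← h5]
    exact RingHom.etale_algebraMap.2 het
  · intro x
    obtain ⟨g, hg, hgx⟩ := exists_mk (x : Hol D)
    refine ⟨g, fun z hz => (hg.differentiableAt (hD.mem_nhds hz)).continuousAt, fun z => ?_⟩
    rw [hρ, hgx]
    rfl
  · refine RingHom.ext fun c => hdiff _ _ fun z => ?_
    refine Eq.trans ?_ (hC c z).symm
    exact congrArg (fun q => ev z (q c)) hα
  · refine RingHom.ext fun c => hdiff _ _ fun z => ?_
    refine Eq.trans ?_ (hC c z).symm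
    exact congrArg (fun q => ev z (q c)) hβ

end Groth.Agent.Gaga.H978.Model
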