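import Groth.Agent.Gaga.H978.SpecPts
import Mathlib.RingTheory.Localization.Away.Basic

/-!
# Evaluation of an algebra of continuous functions gives complex points
-/

set_option autoImplicit false
set_option linter.dupNamespace false
open CategoryTheory AlgebraicGeometry Topology TopologicalSpace Opposite Filter

namespace Groth.Agent.Gaga.H978.Sec

open Groth.Agent.An.H863.PtsBasic Groth.Agent.An.H863.PtsCont Groth.Agent.Gaga.H978.SpecPts

/-- Evaluation at the points of an open set `D` as a continuous family of complex points of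
`Spec R_r`. -/
theorem exists_section {E : Type*} [TopologicalSpace E] {D : Set E} (hD : IsOpen D)
    {R : Type} [CommRing R] (ρ : D → (R →+* ℂ))
    (hρ : ∀ a : R, ∃ g : E → ℂ, (∀ z ∈ D, ContinuousAt g z) ∧ ∀ z : D, ρ z a = g z)
    (κ₀ : ℂ →+* R) (hκ₀ : ∀ z c, ρ z (κ₀ c) = c) (r : R) (z₁ : D) (hr : ρ z₁ r ≠ 0) :
    ∃ sg : E → An.Pts (SpecK ((algebraMap R (Localization.Away r)).comp κ₀)),
      ContinuousAt sg z₁.1 ∧
      ∀ᶠ z in 𝓝 z₁.1, ∃ hz : z ∈ D, ∀ a : R,
        sh _ (sg z) (algebraMap R (Localization.Away r) a) = ρ ⟨z, hz⟩ a := by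
  classical
  let κ : ℂ →+* Localization.Away r := (algebraMap R (Localization.Away r)).comp κ₀
  have hunit : ∀ z : D, ρ z r ≠ 0 → IsUnit (ρ z r) := fun z h => h.isUnit
  let χ : ∀ z : D, ρ z r ≠ 0 → (Localization.Away r →+* ℂ) := fun z h =>
    IsLocalization.Away.lift r (hunit z h)
  have hχ : ∀ z h (a : R), χ z h (algebraMap R _ a) = ρ z a := fun z h a =>
    IsLocalization.Away.lift_eq r (hunit z h) a
  have hχκ : ∀ z h c, χ z h (κ c) = c := by
    intro z h c
    change χ z h (algebraMap R _ (κ₀ c)) = c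
    rw [hχ z h, hκ₀]
  let P : E → Prop := fun z => ∃ hz : z ∈ D, ρ ⟨z, hz⟩ r ≠ 0
  let sg : E → An.Pts (SpecK κ) := fun z =>
    if h : P z then point κ (χ ⟨z, h.1⟩ h.2) (hχκ ⟨z, h.1⟩ h.2) else point κ (χ z₁ hr) (hχκ z₁ hr)
  have hsg : ∀ z (h : P z), sg z = point κ (χ ⟨z, h.1⟩ h.2) (hχκ ⟨z, h.1⟩ h.2) :=
    fun z h => dif_pos h
  obtain ⟨gr, hgr, hgr'⟩ := hρ r
  have hP : ∀ᶠ z in 𝓝 z₁.1, P z := by
    have h0 : gr z₁.1 ≠ 0 := by rw [← hgr']; exact hr
    filter_upwards [(hgr z₁.1 z₁.2).eventually_ne h0, hD.mem_nhds z₁.2] with z hz hzD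
    refine ⟨hzD, ?_⟩
    rw [hgr']
    exact hz
  have hval : ∀ z (h : P z) (a : R), sh κ (sg z) (algebraMap R _ a) = ρ ⟨z, h.1⟩ a := by
    intro z h a
    rw [hsg z h, sh_point, hχ _ h.2]
  refine ⟨sg, ?_, ?_⟩
  · refine continuousAt_of_affine_all sg z₁.1 ⊤ (isAffineOpen_top _)
      (Eventually.of_forall fun _ => trivial) fun f => ?_
    obtain ⟨k, a, ha⟩ := IsLocalization.Away.surj r ((e κ).hom f)
    obtain ⟨ga, hga, hga'⟩ := hρ a
    have hne : gr z₁.1 ^ k ≠ 0 := pow_ne_zero _ (by rw [← hgr']; exact hr)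
    refine ContinuousAt.congr (f := fun z => ga z / gr z ^ k)
      ((hga z₁.1 z₁.2).div ((hgr z₁.1 z₁.2).pow k) hne) ?_
    filter_upwards [hP] with z hz
    rw [evAt_top_eq]
    have h1 := congrArg (sh κ (sg z)) ha
    rw [map_mul, map_pow] at h1
    have h2 : sh κ (sg z) (algebraMap R (Localization.Away r) r) = gr z := by
      rw [hval z hz, hgr']
    have h3 : sh κ (sg z) (algebraMap R (Localization.Away r) a) = ga z := by
      rw [hval z hz, hga']
    rw [h2, h3] at h1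
    have h4 : gr z ^ k ≠ 0 := by
      refine pow_ne_zero _ ?_
      rw [← hgr' ⟨z, hz.1⟩]
      exact hz.2
    rw [← h1, mul_div_assoc, div_self h4, mul_one]
  · filter_upwards [hP] with z hz
    exact ⟨hz.1, hval z hz⟩

end Groth.Agent.Gaga.H978.Sec
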