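import Groth.Agent.An.H863.PtsPullback
import Groth.Agent.An.H868.Chart

/-!
# Complex points of affine schemes `Spec S` and morphisms from `Spec S` to an affine chart
-/

set_option autoImplicit false
set_option linter.dupNamespace false
open CategoryTheory AlgebraicGeometry Topology TopologicalSpace Opposite Filter

noncomputable section

namespace Groth.Agent.Gaga.H978.SpecPts

open Groth.Agent.An.H863.PtsBasic Groth.Agent.An.H863.PtsCont

variable {S : Type} [CommRing S]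

/-- `Spec S`, as a scheme over ℂ through `κ : ℂ → S`. -/
def SpecK (_κ : ℂ →+* S) : Scheme.{0} := Spec (CommRingCat.of S)

instance overSpecK (κ : ℂ →+* S) : (SpecK κ).Over An.SC := ⟨Spec.map (CommRingCat.ofHom κ)⟩

instance isAffineSpecK (κ : ℂ →+* S) : IsAffine (SpecK κ) :=
  inferInstanceAs (IsAffine (Spec (CommRingCat.of S)))

/-- Global sections of `Spec S`. -/
def e (κ : ℂ →+* S) : Γ(SpecK κ, ⊤) ≅ CommRingCat.of S := Scheme.ΓSpecIso (CommRingCat.of S)

variable (κ : ℂ →+* S)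

/-- The value of an element of `S` at a complex point. -/
def sh (x : An.Pts (SpecK κ)) : S →+* ℂ := (evHom x ⊤ trivial).comp (e κ).inv.hom

lemma sh_apply (x : An.Pts (SpecK κ)) (s : S) : sh κ x s = evAt x ⊤ ((e κ).inv s) := by
  rw [evAt_of_mem (show x.pt ∈ (⊤ : (SpecK κ).Opens) from trivial)]
  rfl

lemma evAt_top_eq (x : An.Pts (SpecK κ)) (f : Γ(SpecK κ, ⊤)) : evAt x ⊤ f = sh κ x ((e κ).hom f) := by
  rw [sh_apply, ← CommRingCat.comp_apply, Iso.hom_inv_id]
  rfl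

/-- The structure map on global sections. -/
lemma strHom_SpecK : An.strHom (SpecK κ) = (e κ).inv.hom.comp κ := by
  ext c
  have h5 := Scheme.ΓSpecIso_inv_naturality (CommRingCat.ofHom κ)
  exact congrArg (fun q => q.hom c) h5.symm

lemma sh_comp (x : An.Pts (SpecK κ)) (c : ℂ) : sh κ x (κ c) = c := by
  have h1 : (e κ).inv (κ c) = An.strHom (SpecK κ) c := by rw [strHom_SpecK]; rfl
  rw [sh_apply, h1, evAt_of_mem (show x.pt ∈ (⊤ : (SpecK κ).Opens) from trivial)]
  exact evTop_strHom x c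

/-- The complex point given by a homomorphism `S → ℂ`. -/
def point (χ : S →+* ℂ) (hχ : ∀ c, χ (κ c) = c) : An.Pts (SpecK κ) :=
  ⟨Spec.map (CommRingCat.ofHom χ), by
    change Spec.map (CommRingCat.ofHom χ) ≫ Spec.map (CommRingCat.ofHom κ) = 𝟙 _
    rw [← Spec.map_comp, ← Spec.map_id]
    congr 1
    ext c
    exact hχ c⟩

lemma sh_point (χ : S →+* ℂ) (hχ : ∀ c, χ (κ c) = c) : sh κ (point κ χ hχ) = χ := by
  ext s
  change (Scheme.ΓSpecIso (CommRingCat.of ℂ)).hom ((Spec.map (CommRingCat.ofHom χ)).appLE ⊤ ⊤ _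
    ((Scheme.ΓSpecIso (CommRingCat.of S)).inv s)) = χ s
  have h3 : (Spec.map (CommRingCat.ofHom χ)).appLE ⊤ ⊤ le_top =
      (Spec.map (CommRingCat.ofHom χ)).appTop := by
    simp [Scheme.Hom.appLE, Scheme.Hom.appTop]
  have h4 := Scheme.ΓSpecIso_naturality (CommRingCat.ofHom χ)
  rw [h3]
  have h5 := congrArg (fun q => q.hom ((Scheme.ΓSpecIso (CommRingCat.of S)).inv s)) h4
  refine h5.trans ?_
  change χ ((Scheme.ΓSpecIso (CommRingCat.of S)).hom ((Scheme.ΓSpecIso (CommRingCat.of S)).inv s)) = χ s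
  rw [← CommRingCat.comp_apply, Iso.inv_hom_id]
  rfl

section mor

variable {X : Scheme.{0}} [X.Over An.SC] {U : X.Opens} (hU : IsAffineOpen U)
  (χ : Γ(X, U) →+* S) (hχ : χ.comp (strU U) = κ)

/-- The morphism `Spec S → X` given by a homomorphism on sections over an affine open. -/
def mor : SpecK κ ⟶ X := Spec.map (CommRingCat.ofHom χ) ≫ hU.fromSpec

include hχ in
lemma mor_isOver : (mor κ hU χ).IsOver An.SC := ⟨by
  have h1 : hU.fromSpec ≫ (X ↘ An.SC) =
      Spec.map ((X ↘ An.SC).appLE ⊤ U le_top) ≫ (isAffineOpen_top An.SC).fromSpec :=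
    (IsAffineOpen.SpecMap_appLE_fromSpec (X ↘ An.SC) (isAffineOpen_top An.SC) hU le_top).symm
  have h2 : (isAffineOpen_top An.SC).fromSpec =
      Spec.map ((Scheme.ΓSpecIso (CommRingCat.of ℂ)).inv) := by
    rw [IsAffineOpen.fromSpec_top]
    exact (Scheme.isoSpec_Spec_inv _)
  change (Spec.map (CommRingCat.ofHom χ) ≫ hU.fromSpec) ≫ (X ↘ An.SC) = Spec.map (CommRingCat.ofHom κ)
  rw [Category.assoc, h1, h2, ← Spec.map_comp, ← Spec.map_comp]
  congr 1
  ext c
  exact congrArg (fun q => q c) hχ⟩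

lemma mor_top_le : (⊤ : (SpecK κ).Opens) ≤ (mor κ hU χ) ⁻¹ᵁ U := by
  intro p _
  change hU.fromSpec (Spec.map (CommRingCat.ofHom χ) p) ∈ U
  have : hU.fromSpec (Spec.map (CommRingCat.ofHom χ) p) ∈ Set.range hU.fromSpec := ⟨_, rfl⟩
  rwa [hU.range_fromSpec] at this

lemma mor_appLE (f : Γ(X, U)) : (mor κ hU χ).appLE U ⊤ (mor_top_le κ hU χ) f = (e κ).inv (χ f) := by
  have key : (mor κ hU χ).appLE U ⊤ (mor_top_le κ hU χ) ≫ (e κ).hom = CommRingCat.ofHom χ := by
    change (Spec.map (CommRingCat.ofHom χ) ≫ hU.fromSpec).appLE U ⊤ _ ≫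
      (Scheme.ΓSpecIso (CommRingCat.of S)).hom = _
    rw [← Scheme.Hom.appLE_comp_appLE _ _ U ⊤ ⊤ (by rw [hU.fromSpec_preimage_self]) le_top]
    rw [Scheme.Hom.appLE, hU.fromSpec_app_self]
    have h3 : (Spec.map (CommRingCat.ofHom χ)).appLE ⊤ ⊤ le_top =
        (Spec.map (CommRingCat.ofHom χ)).appTop := by
      simp [Scheme.Hom.appLE, Scheme.Hom.appTop]
    have h4 := Scheme.ΓSpecIso_naturality (CommRingCat.ofHom χ)
    simp only [Category.assoc, Scheme.Hom.map_appLE]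
    rw [h3, h4]
    exact Iso.inv_hom_id_assoc _ _
  rw [← Iso.eq_comp_inv] at key
  rw [key]
  rfl

lemma map_mor_mem [(mor κ hU χ).IsOver An.SC] (x : An.Pts (SpecK κ)) :
    (An.Pts.map (mor κ hU χ) x).pt ∈ U := by
  rw [An.Pts.pt_map]
  exact mor_top_le κ hU χ trivial

lemma evAt_map_mor [(mor κ hU χ).IsOver An.SC] (x : An.Pts (SpecK κ)) (f : Γ(X, U)) :
    evAt (An.Pts.map (mor κ hU χ) x) U f = sh κ x (χ f) := by
  rw [← Groth.Agent.An.H863.PtsPullback.evAt_appLE (mor κ hU χ) x U ⊤ (mor_top_le κ hU χ) trivial,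
    mor_appLE, sh_apply]

end mor

end Groth.Agent.Gaga.H978.SpecPts
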