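import Groth.Agent.Gaga.H66.HolRing
import Mathlib.RingTheory.FiniteType
import Mathlib.RingTheory.Adjoin.FG
import Mathlib.Algebra.MvPolynomial.Funext

/-!
# Finitely generated algebras of algebraic holomorphic functions
-/

set_option autoImplicit false

namespace Groth.Agent.Gaga.H978.SubRing

open Groth.Agent.Gaga.H66.HolRing

/-- The subalgebra generated by two finite type `ℂ`-algebras of algebraic functions. -/
theorem exists_subalgebra {n : ℕ} {D : Set (Fin n → ℂ)} (hD : IsOpen D) (hDc : Convex ℝ D)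
    (hne : D.Nonempty) {A₁ A₂ : Type} [CommRing A₁] [CommRing A₂] (κ₁ : ℂ →+* A₁) (κ₂ : ℂ →+* A₂)
    (h₁ : κ₁.FiniteType) (h₂ : κ₂.FiniteType) (α : A₁ →+* Hol D) (β : A₂ →+* Hol D)
    (hα : α.comp κ₁ = algebraMap ℂ (Hol D)) (hβ : β.comp κ₂ = algebraMap ℂ (Hol D))
    (halgα : ∀ a, IsAlgebraic (MvPolynomial (Fin n) ℂ) (α a))
    (halgβ : ∀ b, IsAlgebraic (MvPolynomial (Fin n) ℂ) (β b)) :
    ∃ R : Subalgebra (MvPolynomial (Fin n) ℂ) (Hol D), (∀ a, α a ∈ R) ∧ (∀ b, β b ∈ R) ∧
      Algebra.FiniteType (MvPolynomial (Fin n) ℂ) R ∧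
      Algebra.IsAlgebraic (MvPolynomial (Fin n) ℂ) R := by
  classical
  have := isDomain hD hDc hne
  let : Algebra ℂ A₁ := κ₁.toAlgebra
  let : Algebra ℂ A₂ := κ₂.toAlgebra
  have h₁' : Algebra.FiniteType ℂ A₁ := h₁
  have h₂' : Algebra.FiniteType ℂ A₂ := h₂
  obtain ⟨S₁, hS₁⟩ := h₁'.out
  obtain ⟨S₂, hS₂⟩ := h₂'.out
  let F : Finset (Hol D) := S₁.image α ∪ S₂.image β
  let R : Subalgebra (MvPolynomial (Fin n) ℂ) (Hol D) := Algebra.adjoin (MvPolynomial (Fin n) ℂ) (F : Set (Hol D))
  have hC : ∀ c : ℂ, algebraMap ℂ (Hol D) c ∈ R := by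
    intro c
    have : algebraMap ℂ (Hol D) c = algebraMap (MvPolynomial (Fin n) ℂ) (Hol D) (MvPolynomial.C c) := by
      refine ext_ev fun x => ?_
      rw [ev_algebraMap, MvPolynomial.eval_C]
      rfl
    rw [this]
    exact R.algebraMap_mem _
  have hαR : ∀ a, α a ∈ R := by
    intro a
    have ha : a ∈ Algebra.adjoin ℂ (S₁ : Set A₁) := by rw [hS₁]; trivial
    induction ha using Algebra.adjoin_induction with
    | mem a ha =>
      exact Algebra.subset_adjoin (by
        simp only [F, Finset.coe_union, Finset.coe_image]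
        exact Or.inl ⟨a, ha, rfl⟩)
    | algebraMap c =>
      have : α (algebraMap ℂ A₁ c) = algebraMap ℂ (Hol D) c := by rw [← hα]; rfl
      rw [this]
      exact hC c
    | add a b _ _ ha hb => rw [map_add]; exact R.add_mem ha hb
    | mul a b _ _ ha hb => rw [map_mul]; exact R.mul_mem ha hb
  have hβR : ∀ b, β b ∈ R := by
    intro a
    have ha : a ∈ Algebra.adjoin ℂ (S₂ : Set A₂) := by rw [hS₂]; trivial
    induction ha using Algebra.adjoin_induction with
    | mem a ha =>
      exact Algebra.subset_adjoin (by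
        simp only [F, Finset.coe_union, Finset.coe_image]
        exact Or.inr ⟨a, ha, rfl⟩)
    | algebraMap c =>
      have : β (algebraMap ℂ A₂ c) = algebraMap ℂ (Hol D) c := by rw [← hβ]; rfl
      rw [this]
      exact hC c
    | add a b _ _ ha hb => rw [map_add]; exact R.add_mem ha hb
    | mul a b _ _ ha hb => rw [map_mul]; exact R.mul_mem ha hb
  have hle : R ≤ Subalgebra.algebraicClosure (MvPolynomial (Fin n) ℂ) (Hol D) := by
    refine Algebra.adjoin_le ?_
    intro x hx
    simp only [F, Finset.coe_union, Finset.coe_image] at hx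
    rcases hx with ⟨a, -, rfl⟩ | ⟨b, -, rfl⟩
    · exact halgα a
    · exact halgβ b
  refine ⟨R, hαR, hβR, ?_, ?_⟩
  · rw [← Subalgebra.fg_iff_finiteType]
    exact ⟨F, rfl⟩
  · refine ⟨fun x => ?_⟩
    have h3 : IsAlgebraic (MvPolynomial (Fin n) ℂ) (x : Hol D) := hle x.2
    exact (isAlgebraic_algebraMap_iff (R := MvPolynomial (Fin n) ℂ) (S := R) (A := Hol D) (a := x)
      Subtype.val_injective).1 h3

/-- The polynomial ring acts faithfully on functions on a nonempty open set. -/
theorem faithful {n : ℕ} {D : Set (Fin n → ℂ)} (hD : IsOpen D) (hne : D.Nonempty) :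
    Function.Injective (algebraMap (MvPolynomial (Fin n) ℂ) (Hol D)) := by
  rw [injective_iff_map_eq_zero]
  intro p hp
  obtain ⟨z, hz⟩ := hne
  obtain ⟨ε, hε, hball⟩ := Metric.isOpen_iff.1 hD z hz
  refine MvPolynomial.funext_set (fun i => Metric.ball (z i) ε) (fun i => ?_) fun x hx => ?_
  · exact infinite_of_mem_nhds (z i) (Metric.ball_mem_nhds _ hε)
  · have hxD : x ∈ D := hball (by rw [ball_pi z hε]; exact hx)
    have h1 := ev_algebraMap D ⟨x, hxD⟩ p
    rw [hp, map_zero] at h1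
    rw [map_zero]
    exact h1.symm

end Groth.Agent.Gaga.H978.SubRing
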